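import Mathlib
import Cfsg.Agent.LocalP.AxB

/-!
A subgroup meeting a conjugate of itself in a normal subgroup of prime index, and no nontrivial
normal subgroup invariant under the conjugating element: such a subgroup is generated by consecutive
conjugates of one element, and the commutation pattern of these conjugates bounds its order
(Glauberman, isomorphic subgroups).
-/

set_option autoImplicit false

open scoped Pointwise

namespace CfsgLib.GlauChain

variable {G : Type*} [Group G]

/-- The conjugate `gⁱ x g⁻ⁱ`. -/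
def cj (g x : G) (i : ℤ) : G := g ^ i * x * (g ^ i)⁻¹

/-- The subgroup generated by `cj g x i`, `a ≤ i ≤ b`. -/
def spn (g x : G) (a b : ℤ) : Subgroup G := Subgroup.closure {y | ∃ i, a ≤ i ∧ i ≤ b ∧ y = cj g x i}

/-- Every interval of at most `t` consecutive conjugates generates a subgroup of the expected order. -/
structure Chain (g x : G) (p t : ℕ) : Prop where
  card : ∀ a b : ℤ, b < a + (t : ℤ) → Nat.card (spn g x a b) = p ^ (b + 1 - a).toNat

variable {g x : G}

theorem cj_zero : cj g x 0 = x := by simp [cj]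

theorem cj_mem {a b i : ℤ} (h1 : a ≤ i) (h2 : i ≤ b) : cj g x i ∈ spn g x a b :=
  Subgroup.subset_closure ⟨i, h1, h2, rfl⟩

theorem spn_mono {a b a' b' : ℤ} (h1 : a' ≤ a) (h2 : b ≤ b') : spn g x a b ≤ spn g x a' b' :=
  (Subgroup.closure_le _).2 fun _ ⟨_, h3, h4, e⟩ => e ▸ cj_mem (h1.trans h3) (h4.trans h2)

theorem spn_empty {a b : ℤ} (h : b < a) : spn g x a b = ⊥ :=
  eq_bot_iff.mpr ((Subgroup.closure_le _).2 fun _ ⟨i, h1, h2, _⟩ => absurd (h1.trans h2) (not_le.mpr h))

theorem spn_singleton (a : ℤ) : spn g x a a = Subgroup.zpowers (cj g x a) := by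
  refine le_antisymm ((Subgroup.closure_le _).2 fun y ⟨i, h1, h2, e⟩ => ?_)
    (Subgroup.zpowers_le.mpr (cj_mem le_rfl le_rfl))
  obtain rfl := le_antisymm h2 h1
  exact e ▸ Subgroup.mem_zpowers _

theorem spn_le_iff {a b : ℤ} {X : Subgroup G} : spn g x a b ≤ X ↔ ∀ i, a ≤ i → i ≤ b → cj g x i ∈ X :=
  ⟨fun h _ h1 h2 => h (cj_mem h1 h2), fun h => (Subgroup.closure_le _).2 fun _ ⟨i, h1, h2, e⟩ => e ▸ h i h1 h2⟩

theorem spn_head {a b : ℤ} (h : a ≤ b) :
    spn g x a b = Subgroup.zpowers (cj g x a) ⊔ spn g x (a + 1) b := by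
  refine le_antisymm (spn_le_iff.mpr fun i h1 h2 => ?_)
    (sup_le (Subgroup.zpowers_le.mpr (cj_mem le_rfl h)) (spn_mono (by omega) le_rfl))
  rcases eq_or_lt_of_le h1 with rfl | h1
  · exact Subgroup.mem_sup_left (Subgroup.mem_zpowers _)
  · exact Subgroup.mem_sup_right (cj_mem (by omega) h2)

theorem cj_shift (i c : ℤ) : g ^ c * cj g x i * (g ^ c)⁻¹ = cj g x (c + i) := by
  unfold cj
  rw [zpow_add]
  group

theorem spn_map (a b c : ℤ) :
    (spn g x a b).map (MulAut.conj (g ^ c)).toMonoidHom = spn g x (c + a) (c + b) := by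
  refine le_antisymm (Subgroup.map_le_iff_le_comap.mpr (spn_le_iff.mpr fun i h1 h2 => ?_))
    (spn_le_iff.mpr fun i h1 h2 => ?_)
  · show g ^ c * cj g x i * (g ^ c)⁻¹ ∈ spn g x (c + a) (c + b)
    rw [cj_shift]
    exact cj_mem (by omega) (by omega)
  · refine ⟨cj g x (i - c), cj_mem (by omega) (by omega), ?_⟩
    show g ^ c * cj g x (i - c) * (g ^ c)⁻¹ = cj g x i
    rw [cj_shift, add_sub_cancel]

theorem cj_inv_base (i : ℤ) : cj g⁻¹ x i = cj g x (-i) := by
  simp [cj, zpow_neg]

theorem spn_inv_base (a b : ℤ) : spn g⁻¹ x a b = spn g x (-b) (-a) := by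
  refine le_antisymm (spn_le_iff.mpr fun i h1 h2 => ?_) (spn_le_iff.mpr fun i h1 h2 => ?_)
  · rw [cj_inv_base]; exact cj_mem (by omega) (by omega)
  · rw [show cj g x i = cj g⁻¹ x (-i) by rw [cj_inv_base, neg_neg]]
    exact cj_mem (by omega) (by omega)

theorem commute_cj (i j : ℤ) : Commute (cj g x i) (cj g x j) ↔ Commute x (cj g x (j - i)) := by
  rw [show cj g x j = g ^ i * cj g x (j - i) * (g ^ i)⁻¹ by rw [cj_shift, add_sub_cancel]]
  exact Commute.conj_iff _

theorem commute_spn {a b c d : ℤ}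
    (h : ∀ i j, a ≤ i → i ≤ b → c ≤ j → j ≤ d → Commute (cj g x i) (cj g x j)) {u v : G}
    (hu : u ∈ spn g x a b) (hv : v ∈ spn g x c d) : Commute u v := by
  have h1 : spn g x c d ≤ Subgroup.centralizer (spn g x a b : Set G) := by
    rw [Subgroup.le_centralizer_iff, spn_le_iff]
    intro i hi1 hi2
    refine Subgroup.mem_centralizer_iff.mpr fun y hy => ?_
    have h2 : spn g x c d ≤ Subgroup.centralizer ({cj g x i} : Set G) := spn_le_iff.mpr fun j hj1 hj2 =>
      Subgroup.mem_centralizer_singleton_iff.mpr (h i j hi1 hi2 hj1 hj2).symm.eq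
    exact Subgroup.mem_centralizer_singleton_iff.mp (h2 hy)
  exact Subgroup.mem_centralizer_iff.mp (h1 hv) u hu

variable {p t : ℕ}

namespace Chain

variable (H : Chain g x p t)

include H

theorem inv_base : Chain g⁻¹ x p t where
  card a b h := by
    rw [spn_inv_base, H.card (-b) (-a) (by omega)]
    congr 2
    omega

theorem isPGroup {a b : ℤ} (h : b < a + t) : IsPGroup p (spn g x a b) := IsPGroup.of_card (H.card a b h)

variable [Finite G] [hp : Fact p.Prime]

theorem not_mem {a d : ℤ} (had : a ≤ d) (hd : d < a + t) : cj g x a ∉ spn g x (a + 1) d := by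
  intro h
  have e : spn g x a d = spn g x (a + 1) d := by
    rw [spn_head had]
    exact sup_eq_right.mpr (Subgroup.zpowers_le.mpr h)
  have h1 := H.card a d hd
  rw [e, H.card (a + 1) d (by omega)] at h1
  have := Nat.pow_right_injective hp.out.two_le h1
  omega

theorem card_zpowers (ht : 1 ≤ t) (i : ℤ) : Nat.card (Subgroup.zpowers (cj g x i)) = p := by
  rw [← spn_singleton, H.card i i (by omega)]
  simp

theorem zpowers_eq (ht : 1 ≤ t) {i : ℤ} {z : G} (hz : z ∈ Subgroup.zpowers (cj g x i)) (hz1 : z ≠ 1) :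
    Subgroup.zpowers z = Subgroup.zpowers (cj g x i) := by
  refine Subgroup.eq_of_le_of_card_ge (Subgroup.zpowers_le.mpr hz) ?_
  have hdvd := Subgroup.card_dvd_of_le (Subgroup.zpowers_le.mpr hz)
  rw [H.card_zpowers ht] at hdvd ⊢
  rcases (Nat.dvd_prime hp.out).mp hdvd with e | e
  · exact absurd (Subgroup.zpowers_eq_bot.mp (Subgroup.card_eq_one.mp e)) hz1
  · exact e.ge

theorem head_one (ht : 1 ≤ t) {a d : ℤ} (hd : d < a + t) {z : G} (hz : z ∈ Subgroup.zpowers (cj g x a))
    (hz' : z ∈ spn g x (a + 1) d) : z = 1 := by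
  by_contra hz1
  rcases le_or_gt a d with had | had
  · refine H.not_mem had hd ?_
    have h1 := Subgroup.zpowers_le.mpr hz'
    rw [H.zpowers_eq ht hz hz1] at h1
    exact h1 (Subgroup.mem_zpowers _)
  · rw [spn_empty (by omega), Subgroup.mem_bot] at hz'
    exact hz1 hz'

theorem normalizes_succ {a b : ℤ} (hab : a ≤ b) (hd : b < a + t) :
    spn g x a b ≤ Subgroup.normalizer (spn g x (a + 1) b : Set G) := by
  have hle : spn g x (a + 1) b ≤ spn g x a b := spn_mono (by omega) le_rfl
  obtain ⟨r, hr, hrn, hrn'⟩ := CfsgLib.LocalP.exists_normalizes_not_mem (H.isPGroup hd) hle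
    (fun e => H.not_mem hab hd (e ▸ cj_mem le_rfl hab))
  set U := spn g x (a + 1) b ⊔ Subgroup.zpowers r with hU
  have hUle : U ≤ spn g x a b := sup_le hle (Subgroup.zpowers_le.mpr hr)
  obtain ⟨m, hm⟩ := ((H.isPGroup hd).to_le hUle).exists_card_eq
  have hlt : Nat.card (spn g x (a + 1) b) < Nat.card U := by
    refine lt_of_le_of_ne (Subgroup.card_le_of_le le_sup_left) fun e => hrn' ?_
    rw [Subgroup.eq_of_le_of_card_ge le_sup_left e.ge]
    exact Subgroup.mem_sup_right (Subgroup.mem_zpowers r)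
  rw [H.card (a + 1) b (by omega), hm] at hlt
  have hUeq : U = spn g x a b := Subgroup.eq_of_le_of_card_ge hUle (by
    rw [H.card a b hd, hm]
    refine Nat.pow_le_pow_right hp.out.pos ?_
    have := (Nat.pow_lt_pow_iff_right hp.out.one_lt).mp hlt
    omega)
  rw [← hUeq]
  exact sup_le Subgroup.le_normalizer (Subgroup.zpowers_le.mpr hrn)

theorem normalizes_pred {a b : ℤ} (hab : a ≤ b) (hd : b < a + t) :
    spn g x a b ≤ Subgroup.normalizer (spn g x a (b - 1) : Set G) := by
  have h := H.inv_base.normalizes_succ (a := -b) (b := -a) (by omega) (by omega)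
  rwa [spn_inv_base, spn_inv_base, neg_neg, neg_neg, show -(-b + 1) = b - 1 by ring] at h

theorem head_decomp {a b : ℤ} (hab : a ≤ b) (hd : b < a + t) {y : G} (hy : y ∈ spn g x a b) :
    ∃ z ∈ Subgroup.zpowers (cj g x a), ∃ y' ∈ spn g x (a + 1) b, y = z * y' := by
  have hn : Subgroup.zpowers (cj g x a) ≤ Subgroup.normalizer (spn g x (a + 1) b : Set G) :=
    (Subgroup.zpowers_le.mpr (cj_mem le_rfl hab)).trans (H.normalizes_succ hab hd)
  rw [spn_head hab, ← SetLike.mem_coe, Subgroup.coe_mul_of_left_le_normalizer_right _ _ hn] at hy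
  obtain ⟨z, hz, y', hy', rfl⟩ := hy
  exact ⟨z, hz, y', hy', rfl⟩

theorem mem_interior (ht : 1 ≤ t) {a b : ℤ} (hab : a < b) (hd : b < a + t) {y : G} (h1 : y ∈ spn g x a (b - 1))
    (h2 : y ∈ spn g x (a + 1) b) : y ∈ spn g x (a + 1) (b - 1) := by
  obtain ⟨z, hz, y', hy', rfl⟩ := H.head_decomp (by omega) (by omega) h1
  have h3 := mul_mem h2 (inv_mem (spn_mono le_rfl (by omega) hy' : y' ∈ spn g x (a + 1) b))
  rw [mul_inv_cancel_right] at h3
  rw [H.head_one ht hd hz h3, one_mul]
  exact hy'

theorem disjoint (ht : 1 ≤ t) : ∀ (n : ℕ) {a b c d : ℤ}, b + 1 - a ≤ n → b < c → d < a + t → ∀ {y : G},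
    y ∈ spn g x a b → y ∈ spn g x c d → y = 1 := by
  intro n
  induction n with
  | zero => intro a b c d h _ _ y hy _; rwa [spn_empty (by omega), Subgroup.mem_bot] at hy
  | succ n ih =>
    intro a b c d h hbc hd y hy hy2
    rcases lt_or_ge b a with hba | hba
    · rwa [spn_empty hba, Subgroup.mem_bot] at hy
    rcases lt_or_ge d c with hdc | hdc
    · rwa [spn_empty hdc, Subgroup.mem_bot] at hy2
    obtain ⟨z, hz, y', hy', rfl⟩ := H.head_decomp hba (by omega) hy
    have h2 : z * y' ∈ spn g x (a + 1) d := spn_mono (by omega) le_rfl hy2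
    have h3 := mul_mem h2 (inv_mem (spn_mono le_rfl (by omega) hy' : y' ∈ spn g x (a + 1) d))
    rw [mul_inv_cancel_right] at h3
    have hz1 := H.head_one ht hd hz h3
    rw [hz1, one_mul] at hy2 ⊢
    exact ih (by omega) hbc (by omega) hy' hy2

theorem comm_mem (ht : 1 ≤ t) {i j : ℤ} (hij : i < j) (hd : j < i + t) :
    cj g x i * cj g x j * (cj g x i)⁻¹ * (cj g x j)⁻¹ ∈ spn g x (i + 1) (j - 1) := by
  refine H.mem_interior ht hij hd ?_ ?_
  · have h1 := (Subgroup.mem_normalizer_iff.mp
      (H.normalizes_pred hij.le hd (cj_mem (i := j) hij.le le_rfl)) _).mp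
      (inv_mem (cj_mem (g := g) (x := x) (a := i) (b := j - 1) (i := i) le_rfl (by omega)))
    have h2 := mul_mem (cj_mem (g := g) (x := x) (a := i) (b := j - 1) (i := i) le_rfl (by omega)) h1
    simpa [mul_assoc] using h2
  · have h1 := (Subgroup.mem_normalizer_iff.mp
      (H.normalizes_succ hij.le hd (cj_mem (i := i) le_rfl hij.le)) _).mp
      (cj_mem (g := g) (x := x) (a := i + 1) (b := j) (i := j) (by omega) le_rfl)
    exact mul_mem h1 (inv_mem (cj_mem (by omega) le_rfl))

/-- The commutator at the first noncommuting distance `s` lies in the top part of the interior. -/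
theorem comm_high {s : ℕ} (hst : s < t) (hs : ∀ d : ℕ, d < s → Commute x (cj g x d))
    (hns : ¬ Commute x (cj g x s)) :
    x * cj g x s * x⁻¹ * (cj g x s)⁻¹ ∈ spn g x ((t : ℤ) - s) ((s : ℤ) - 1) := by
  have ht : 1 ≤ t := by omega
  have hs0 : 0 < s := Nat.pos_of_ne_zero fun e => hns (by subst e; simp [cj_zero])
  have hclose : ∀ i j : ℤ, i - j < s → j - i < s → Commute (cj g x i) (cj g x j) := by
    intro i j h1 h2
    rcases le_total i j with h | h
    · rw [commute_cj, show j - i = ((j - i).toNat : ℤ) by omega]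
      exact hs _ (by omega)
    · refine Commute.symm ?_
      rw [commute_cj, show i - j = ((i - j).toNat : ℤ) by omega]
      exact hs _ (by omega)
  set w := x * cj g x s * x⁻¹ * (cj g x s)⁻¹ with hw
  have hbase : w ∈ spn g x 1 ((s : ℤ) - 1) := by
    have h := H.comm_mem ht (i := 0) (j := s) (by omega) (by omega)
    simpa [cj_zero] using h
  suffices key : ∀ a : ℕ, (a : ℤ) + 1 ≤ (t : ℤ) - s → w ∈ spn g x ((a : ℤ) + 1) ((s : ℤ) - 1) by
    have := key (t - s - 1) (by omega)
    rwa [show ((t - s - 1 : ℕ) : ℤ) + 1 = (t : ℤ) - s by omega] at this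
  intro a
  induction a with
  | zero => intro _; simpa using hbase
  | succ a ih =>
    intro ha
    push_cast at ha
    have hwa := ih (by omega)
    rw [show (((a + 1 : ℕ) : ℤ)) = (a : ℤ) + 1 by push_cast; rfl]
    rcases lt_or_ge ((s : ℤ) - 1) ((a : ℤ) + 1) with hlt | hge
    · rw [spn_empty hlt, Subgroup.mem_bot] at hwa
      rw [hwa]; exact one_mem _
    set j : ℤ := (a : ℤ) + 1 + s with hj
    set u := cj g x j * x * (cj g x j)⁻¹ * x⁻¹ with hu
    have hu' : u ∈ spn g x 1 (j - 1) := by
      have h := inv_mem (H.comm_mem ht (i := 0) (j := j) (by omega) (by omega))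
      simpa [hu, cj_zero, mul_assoc] using h
    -- `w` commutes with `cj g x j`
    have hjs : Commute (cj g x j) (cj g x s) := hclose _ _ (by omega) (by omega)
    have hus : Commute u (cj g x s) :=
      commute_spn (a := 1) (b := j - 1) (c := s) (d := s) (fun i k h1 h2 h3 h4 => hclose i k (by omega) (by omega))
        hu' (cj_mem le_rfl le_rfl)
    have huw : Commute u w :=
      commute_spn (fun i k h1 h2 h3 h4 => hclose i k (by omega) (by omega)) hu' hwa
    have hjw : Commute (cj g x j) w := by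
      have e : cj g x j * w * (cj g x j)⁻¹ = w := by
        calc cj g x j * w * (cj g x j)⁻¹
            = (cj g x j * x * (cj g x j)⁻¹) * (cj g x j * cj g x s * (cj g x j)⁻¹) *
                (cj g x j * x * (cj g x j)⁻¹)⁻¹ * (cj g x j * cj g x s * (cj g x j)⁻¹)⁻¹ := by
              rw [hw]; group
          _ = (u * x) * cj g x s * (u * x)⁻¹ * (cj g x s)⁻¹ := by
              rw [hjs.eq, mul_inv_cancel_right, hu, inv_mul_cancel_right]
          _ = u * w * (cj g x s * u⁻¹ * (cj g x s)⁻¹) := by rw [hw]; group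
          _ = u * w * u⁻¹ := by rw [(hus.symm.inv_right).eq, mul_inv_cancel_right]
          _ = w := by rw [huw.eq, mul_inv_cancel_right]
      exact mul_inv_eq_iff_eq_mul.mp e
    obtain ⟨z, hz, w', hw', hzw⟩ := H.head_decomp hge (by omega) hwa
    have hjw' : Commute (cj g x j) w' :=
      commute_spn (a := j) (b := j) (fun i k h1 h2 h3 h4 => hclose i k (by omega) (by omega))
        (cj_mem le_rfl le_rfl) hw'
    have hjz : Commute (cj g x j) z := by
      have h := hjw.mul_right hjw'.inv_right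
      rwa [hzw, mul_inv_cancel_right] at h
    have hz1 : z = 1 := by
      by_contra hz1
      refine hns ?_
      have hmem : cj g x ((a : ℤ) + 1) ∈ Subgroup.centralizer ({cj g x j} : Set G) := by
        have hle : Subgroup.zpowers z ≤ Subgroup.centralizer ({cj g x j} : Set G) :=
          Subgroup.zpowers_le.mpr (Subgroup.mem_centralizer_singleton_iff.mpr hjz.symm.eq)
        exact hle (H.zpowers_eq ht hz hz1 ▸ Subgroup.mem_zpowers _)
      have h : Commute (cj g x ((a : ℤ) + 1)) (cj g x j) := Subgroup.mem_centralizer_singleton_iff.mp hmem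
      rwa [commute_cj, show j - ((a : ℤ) + 1) = s by omega] at h
    rw [hzw, hz1, one_mul]
    exact hw'

/-- The commutator at the first noncommuting distance lies in `spn (t - s) (2s - t)`. -/
theorem comm_low {s : ℕ} (hst : s < t) (hs : ∀ d : ℕ, d < s → Commute x (cj g x d))
    (hns : ¬ Commute x (cj g x s)) :
    x * cj g x s * x⁻¹ * (cj g x s)⁻¹ ∈ spn g x 1 (2 * (s : ℤ) - t) := by
  have hs' : ∀ d : ℕ, d < s → Commute x (cj g⁻¹ x d) := by
    intro d hd
    have h := (hs d hd).symm
    rw [show x = cj g x 0 from cj_zero.symm] at h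
    rw [cj_inv_base]
    have h2 : Commute (cj g x d) (cj g x 0) := by simpa [cj_zero] using h
    rw [commute_cj] at h2
    simpa using h2
  have hns' : ¬ Commute x (cj g⁻¹ x s) := by
    intro h
    rw [cj_inv_base] at h
    refine hns ?_
    have h2 : Commute (cj g x 0) (cj g x (-(s : ℤ))) := by simpa [cj_zero] using h
    have h3 := h2.symm
    rw [commute_cj] at h3
    simpa using h3
  have h := H.inv_base.comm_high hst hs' hns'
  rw [cj_inv_base, spn_inv_base] at h
  have h2 := Subgroup.mem_map_of_mem (MulAut.conj (g ^ (s : ℤ))).toMonoidHom (inv_mem h)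
  rw [spn_map] at h2
  refine spn_mono (by omega) (by omega) (show _ ∈ spn g x _ _ from ?_) (a := (s : ℤ) + -((s : ℤ) - 1))
    (b := (s : ℤ) + -((t : ℤ) - s))
  convert h2 using 1
  rw [MulEquiv.coe_toMonoidHom, MulAut.conj_apply]
  unfold cj
  group

/-- `2t ≤ 3s` when the first noncommuting distance `s` is smaller than `t`. -/
theorem two_mul_le {s : ℕ} (hs : ∀ d : ℕ, d < s → Commute x (cj g x d)) (hns : ¬ Commute x (cj g x s)) :
    2 * t ≤ 3 * s := by
  by_contra hlt
  have hs0 : 0 < s := Nat.pos_of_ne_zero fun e => hns (by subst e; simp [cj_zero])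
  have hst : s < t := by omega
  have h1 := H.comm_high hst hs hns
  have h2 := H.comm_low hst hs hns
  have h3 := H.disjoint (by omega) (2 * s) (a := 1) (b := 2 * (s : ℤ) - t) (c := (t : ℤ) - s)
    (d := (s : ℤ) - 1) (by omega) (by omega) (by omega) h2 h1
  exact hns (mul_inv_eq_one.mp h3 |> mul_inv_eq_iff_eq_mul.mp)

end Chain

/-- `P ⊓ g⁻¹(⋯)g`, iterated. -/
def descend (P : Subgroup G) (g : G) : ℕ → Subgroup G
  | 0 => P
  | n + 1 => P ⊓ (descend P g n).map (MulAut.conj g⁻¹).toMonoidHom

/-- The subgroup is the span of `t` consecutive conjugates of one element. -/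
theorem exists_chain [Finite G] {P : Subgroup G} {g : G} {p : ℕ} [hp : Fact p.Prime]
    (hN : ((P ⊓ MulAut.conj g⁻¹ • P).subgroupOf (MulAut.conj g⁻¹ • P)).Normal)
    (hidx : (P ⊓ MulAut.conj g⁻¹ • P).relIndex (MulAut.conj g⁻¹ • P) = p)
    (h1 : ∀ Q : Subgroup G, Q ≤ P → (Q.subgroupOf P).Normal → MulAut.conj g • Q = Q → Q = ⊥) :
    ∃ (x : G) (t : ℕ), 1 ≤ t ∧ Chain g x p t ∧ spn g x 0 ((t : ℤ) - 1) = P ∧ Nat.card P = p ^ t := by
  classical
  have hsm : ∀ (c : G) (X : Subgroup G), MulAut.conj c • X = X.map (MulAut.conj c).toMonoidHom := fun _ _ => rfl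
  set φ := (MulAut.conj g⁻¹).toMonoidHom with hφ
  have hφinj : Function.Injective φ := (MulAut.conj g⁻¹).injective
  have hmap : ∀ X : Subgroup G, (X.map φ).map (MulAut.conj g).toMonoidHom = X := fun X => by
    rw [Subgroup.map_map, show (MulAut.conj g).toMonoidHom.comp φ = MonoidHom.id G by
      ext y; simp [hφ, mul_assoc], Subgroup.map_id]
  have hcard : ∀ X : Subgroup G, Nat.card (X.map φ) = Nat.card X := fun X =>
    Subgroup.card_map_of_injective hφinj
  have hmul : ∀ {A B : Subgroup G}, A ≤ B → Nat.card A * A.relIndex B = Nat.card B := fun {A B} h => by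
    have := Subgroup.relIndex_mul_relIndex ⊥ A B bot_le h
    rwa [Subgroup.relIndex_bot_left, Subgroup.relIndex_bot_left] at this
  rw [hsm, ← hφ] at hN hidx
  -- `P` is a `p`-group
  set X : Subgroup G := Subgroup.closure {y | y ∈ P ∧ (orderOf y).Coprime p} with hX
  have hXP : X ≤ P := (Subgroup.closure_le _).2 fun y hy => hy.1
  have hXg : X.map φ ≤ X := by
    rw [Subgroup.map_le_iff_le_comap, hX, Subgroup.closure_le]
    rintro y ⟨hy, hyo⟩
    refine Subgroup.subset_closure ⟨?_, ?_⟩
    · haveI := hN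
      set N := (P ⊓ P.map φ).subgroupOf (P.map φ)
      have h2 : ∀ z : ↥(P.map φ), (orderOf z).Coprime p → z ∈ N := by
        intro z hz
        have hi : N.index = p := hidx
        rw [← QuotientGroup.eq_one_iff (N := N), ← orderOf_eq_one_iff]
        refine Nat.eq_one_of_dvd_coprimes hz (orderOf_map_dvd (QuotientGroup.mk' N) z) ?_
        rw [← hi]
        exact orderOf_dvd_natCard _
      exact (Subgroup.mem_subgroupOf.mp (h2 ⟨φ y, Subgroup.mem_map_of_mem φ hy⟩ (by
        rw [Subgroup.orderOf_mk, orderOf_injective φ hφinj]; exact hyo))).1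
    · rwa [orderOf_injective φ hφinj]
  have hXeq : X.map φ = X := Subgroup.eq_of_le_of_card_ge hXg (hcard X).ge
  have hX1 : X = ⊥ := by
    refine h1 X hXP (Subgroup.normal_subgroupOf_of_le_normalizer fun y hy => ?_) (by
      rw [hsm]; conv_lhs => rw [← hXeq]
      exact hmap X)
    refine Subgroup.mem_normalizer_iff_map_conj_eq.mpr
      (Subgroup.eq_of_le_of_card_ge ?_ (Subgroup.card_map_of_injective (MulAut.conj y).injective).ge)
    refine Subgroup.map_le_iff_le_comap.mpr ((Subgroup.closure_le _).2 fun w hw => ?_)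
    exact Subgroup.subset_closure ⟨mul_mem (mul_mem hy hw.1) (inv_mem hy), by
      erw [MulEquiv.orderOf_eq (MulAut.conj y) w]
      exact hw.2⟩
  have hP : IsPGroup p P := by
    intro y
    refine ⟨(orderOf (y : G)).factorization p, Subtype.ext ?_⟩
    rw [SubgroupClass.coe_pow, OneMemClass.coe_one]
    have hne : orderOf (y : G) ≠ 0 := (orderOf_pos _).ne'
    have hy' : (y : G) ^ p ^ (orderOf (y : G)).factorization p ∈ X := by
      refine Subgroup.subset_closure ⟨pow_mem y.2 _, ?_⟩
      rw [orderOf_pow' _ (pow_ne_zero _ hp.out.ne_zero), Nat.gcd_eq_right (Nat.ordProj_dvd _ _)]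
      exact (Nat.coprime_ordCompl hp.out hne).symm
    rwa [hX1, Subgroup.mem_bot] at hy'
  -- the descending chain
  obtain ⟨E, hEdef⟩ : ∃ E, E = descend P g := ⟨_, rfl⟩
  have hE0 : E 0 = P := by rw [hEdef]; rfl
  have hEs : ∀ j, E (j + 1) = P ⊓ (E j).map φ := fun j => by rw [hEdef]; rfl
  have hanti : ∀ j, E (j + 1) ≤ E j := by
    intro j
    induction j with
    | zero => rw [hEs, hE0]; exact inf_le_left
    | succ j ih => rw [hEs (j + 1)]; conv_rhs => rw [hEs j]
                   exact inf_le_inf_left P (Subgroup.map_mono ih)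
  have hEP : ∀ j, E j ≤ P := fun j => by
    cases j with
    | zero => exact hE0.le
    | succ j => exact (hEs j).le.trans inf_le_left
  have hstep : ∀ j, (E (j + 1)).relIndex (E j) ≤ p := by
    intro j
    induction j with
    | zero =>
      rw [hEs, hE0]
      have e1 := hmul (inf_le_left : P ⊓ P.map φ ≤ P)
      have e2 := hmul (inf_le_right : P ⊓ P.map φ ≤ P.map φ)
      rw [hidx, hcard, ← e1] at e2
      exact (Nat.eq_of_mul_eq_mul_left Nat.card_pos e2).ge
    | succ j ih =>
      have e : E (j + 2) = E (j + 1) ⊓ (E (j + 1)).map φ := by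
        refine le_antisymm (le_inf (hanti (j + 1)) ((hEs (j + 1)).le.trans inf_le_right)) ?_
        rw [hEs (j + 1)]
        exact inf_le_inf_right _ (hEP _)
      rw [e, Subgroup.inf_relIndex_left]
      refine (Subgroup.relIndex_le_of_le_right (K := E (j + 1)) (L := (E j).map φ)
        ((hEs j).le.trans inf_le_right) Subgroup.index_ne_zero_of_finite).trans ?_
      rw [Subgroup.relIndex_map_map_of_injective _ _ hφinj]
      exact ih
  have hdrop : ∀ j, E (j + 1) ≠ E j → Nat.card ↥(E j) = p * Nat.card ↥(E (j + 1)) := by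
    intro j hne
    rw [← hmul (hanti j), mul_comm]
    congr 1
    obtain ⟨m, hm⟩ := (hP.to_le (hEP j)).index ((E (j + 1)).subgroupOf (E j))
    have hle := hstep j
    rw [Subgroup.relIndex, hm] at hle ⊢
    rcases m with _ | _ | m
    · rw [pow_zero] at hm
      exact absurd (le_antisymm (hanti j) (Subgroup.relIndex_eq_one.mp hm)) hne
    · exact pow_one p
    · exfalso
      have h2 := Nat.pow_lt_pow_right hp.out.one_lt (show 1 < m + 1 + 1 by omega)
      rw [pow_one] at h2
      omega
  have hex : ∃ k, E (k + 1) = E k := by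
    by_contra hcon
    push Not at hcon
    have hbig : ∀ j, Nat.card ↥(E j) * p ^ j = Nat.card ↥(E 0) := by
      intro j
      induction j with
      | zero => simp
      | succ j ih => rw [← ih, hdrop j (hcon j), pow_succ]; ring
    have h2 := hbig (Nat.card P)
    have h3 : Nat.card P < p ^ Nat.card P := Nat.lt_pow_self hp.out.one_lt
    have h4 : 0 < Nat.card ↥(E (Nat.card P)) := Nat.card_pos
    nlinarith [hE0 ▸ h2]
  set k := Nat.find hex with hk
  have hlow : ∀ j, j < k → E (j + 1) ≠ E j := fun j hj => Nat.find_min hex hj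
  have hI : (E k).map φ = E k := by
    refine Subgroup.eq_of_le_of_card_ge ?_ (hcard _).le |>.symm
    conv_lhs => rw [← Nat.find_spec hex, ← hk, hEs]
    exact inf_le_right
  have hIg : (E k).map (MulAut.conj g).toMonoidHom = E k := by conv_lhs => rw [← hI, hmap]
  have hk0 : k ≠ 0 := by
    intro e
    have hbot : P = ⊥ := h1 P le_rfl (by rw [Subgroup.subgroupOf_self]; infer_instance) (by rw [hsm]; simpa [e, hE0] using hIg)
    rw [hbot, Subgroup.map_bot, inf_idem, Subgroup.relIndex_self] at hidx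
    exact hp.out.one_lt.ne hidx
  -- two conjugate maximal subgroups
  have hgen : ∀ j, j + 1 < k → E j = E (j + 1) ⊔ (E (j + 1)).map (MulAut.conj g).toMonoidHom := by
    intro j hj
    set F := (E (j + 1)).map (MulAut.conj g).toMonoidHom
    have hF : F ≤ E j := by
      conv_rhs => rw [← hmap (E j)]
      exact Subgroup.map_mono ((hEs j).le.trans inf_le_right)
    have hne : ¬ F ≤ E (j + 1) := fun h => by
      have h' : E (j + 1) ≤ (E (j + 1)).map φ := by
        have hle := Subgroup.map_mono (f := φ) h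
        rwa [Subgroup.map_map, show φ.comp (MulAut.conj g).toMonoidHom = MonoidHom.id G by
          ext y; simp [hφ, mul_assoc], Subgroup.map_id] at hle
      refine hlow (j + 1) hj (le_antisymm (hanti _) ?_)
      rw [hEs (j + 1)]
      exact le_inf (hEP _) h'
    refine (Subgroup.eq_of_le_of_card_ge (sup_le (hanti j) hF) ?_).symm
    obtain ⟨m, hm⟩ := (hP.to_le (hEP (j + 1))).exists_card_eq
    obtain ⟨m', hm'⟩ := (hP.to_le ((sup_le (hanti j) hF).trans (hEP j))).exists_card_eq
    have hlt : Nat.card ↥(E (j + 1)) < Nat.card ↥(E (j + 1) ⊔ F) :=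
      lt_of_le_of_ne (Subgroup.card_le_of_le le_sup_left) fun e =>
        hne (le_sup_right.trans (Subgroup.eq_of_le_of_card_ge le_sup_left e.ge).ge)
    rw [hdrop j (hlow j (by omega)), hm, hm', ← pow_succ']
    rw [hm, hm'] at hlt
    exact Nat.pow_le_pow_right hp.out.pos ((Nat.pow_lt_pow_iff_right hp.out.one_lt).mp hlt)
  have hIn : P ≤ Subgroup.normalizer (E k : Set G) := by
    suffices h : ∀ i, i < k → E (k - 1 - i) ≤ Subgroup.normalizer (E k : Set G) by
      simpa [hE0] using h (k - 1) (by omega)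
    intro i
    induction i with
    | zero =>
      intro _
      have hsucc : k - 1 + 1 = k := by omega
      have hle : E k ≤ E (k - 1) := hsucc ▸ hanti (k - 1)
      obtain ⟨r, hr, hrn, hrn'⟩ := CfsgLib.LocalP.exists_normalizes_not_mem (hP.to_le (hEP (k - 1))) hle
        (fun e => hlow (k - 1) (by omega) (hsucc.symm ▸ e))
      have hU : E k ⊔ Subgroup.zpowers r = E (k - 1) := by
        refine Subgroup.eq_of_le_of_card_ge (sup_le hle (Subgroup.zpowers_le.mpr hr)) ?_
        obtain ⟨m, hm⟩ := (hP.to_le (hEP k)).exists_card_eq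
        obtain ⟨m', hm'⟩ := (hP.to_le ((sup_le hle (Subgroup.zpowers_le.mpr hr)).trans (hEP _))).exists_card_eq
        have hlt : Nat.card ↥(E k) < Nat.card ↥(E k ⊔ Subgroup.zpowers r) :=
          lt_of_le_of_ne (Subgroup.card_le_of_le le_sup_left) fun e =>
            hrn' (by rw [Subgroup.eq_of_le_of_card_ge le_sup_left e.ge]; exact Subgroup.mem_sup_right (Subgroup.mem_zpowers r))
        rw [hdrop (k - 1) (hlow _ (by omega)), hsucc, hm, hm', ← pow_succ']
        rw [hm, hm'] at hlt
        exact Nat.pow_le_pow_right hp.out.pos ((Nat.pow_lt_pow_iff_right hp.out.one_lt).mp hlt)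
      rw [Nat.sub_zero, ← hU]
      exact sup_le Subgroup.le_normalizer (Subgroup.zpowers_le.mpr hrn)
    | succ i ih =>
      intro hi
      have e : k - 1 - (i + 1) + 1 = k - 1 - i := by omega
      rw [hgen (k - 1 - (i + 1)) (by omega), e]
      have h := ih (by omega)
      refine sup_le h (Subgroup.map_le_iff_le_comap.mpr fun y hy => ?_)
      have hgm : g ∈ Subgroup.normalizer (E k : Set G) := Subgroup.mem_normalizer_iff_map_conj_eq.mpr hIg
      exact mul_mem (mul_mem hgm (h hy)) (inv_mem hgm)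
  have hkbot : E k = ⊥ :=
    h1 _ (hEP k) (Subgroup.normal_subgroupOf_of_le_normalizer hIn) (by rw [hsm]; exact hIg)
  have hcardE : ∀ i, i ≤ k → Nat.card ↥(E (k - i)) = p ^ i := by
    intro i
    induction i with
    | zero => intro _; simp [hkbot]
    | succ i ih =>
      intro hi
      have e : k - (i + 1) + 1 = k - i := by omega
      rw [hdrop _ (hlow _ (by omega)), e, ih (by omega), ← pow_succ']
  have h1k : Nat.card ↥(E (k - 1)) = p := by simpa using hcardE 1 (by omega)
  obtain ⟨x, hx, hx1⟩ := (Subgroup.bot_or_exists_ne_one (E (k - 1))).resolve_left fun e => by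
    rw [e, Subgroup.card_bot] at h1k; exact hp.out.one_lt.ne h1k
  have hxz : Subgroup.zpowers x = E (k - 1) := by
    refine Subgroup.eq_of_le_of_card_ge (Subgroup.zpowers_le.mpr hx) ?_
    have hd := Subgroup.card_dvd_of_le (Subgroup.zpowers_le.mpr hx)
    rw [h1k] at hd ⊢
    rcases (Nat.dvd_prime hp.out).mp hd with e | e
    · exact absurd (Subgroup.zpowers_eq_bot.mp (Subgroup.card_eq_one.mp e)) hx1
    · exact e.ge
  have hspan : ∀ m : ℕ, m < k → spn g x 0 m = E (k - 1 - m) := by
    intro m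
    induction m with
    | zero => intro _; rw [Nat.cast_zero, spn_singleton, cj_zero, hxz, Nat.sub_zero]
    | succ m ih =>
      intro hm
      have e : k - 1 - (m + 1) + 1 = k - 1 - m := by omega
      rw [hgen (k - 1 - (m + 1)) (by omega), e, ← ih (by omega)]
      rw [show (MulAut.conj g).toMonoidHom = (MulAut.conj (g ^ (1 : ℤ))).toMonoidHom by rw [zpow_one],
        spn_map]
      refine le_antisymm (spn_le_iff.mpr fun i h1 h2 => ?_) (sup_le (spn_mono le_rfl (by omega)) (spn_mono (by omega) (by omega)))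
      push_cast at h2
      rcases le_or_gt i m with h | h
      · exact Subgroup.mem_sup_left (cj_mem h1 h)
      · exact Subgroup.mem_sup_right (cj_mem (by omega) (by omega))
  refine ⟨x, k, by omega, ⟨fun a b hab => ?_⟩, ?_, by simpa [hE0] using hcardE k le_rfl⟩
  · rcases lt_or_ge b a with hba | hba
    · rw [spn_empty hba, Subgroup.card_bot, show (b + 1 - a).toNat = 0 by omega, pow_zero]
    · obtain ⟨m, rfl⟩ : ∃ m : ℕ, b = a + m := ⟨(b - a).toNat, by omega⟩
      have h := spn_map (g := g) (x := x) 0 m a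
      rw [add_zero] at h
      rw [← h, Subgroup.card_map_of_injective (MulAut.conj (g ^ a)).injective, hspan m (by omega),
        show k - 1 - m = k - (m + 1) by omega, hcardE _ (by omega), show (a + m + 1 - a : ℤ).toNat = m + 1 by omega]
  · rw [show (k : ℤ) - 1 = ((k - 1 : ℕ) : ℤ) by omega, hspan _ (by omega), Nat.sub_self, hE0]

/-- Glauberman's bound: `|P| = p ^ t` with `t ≤ 3n` and `t ≠ 3n - 1`. -/
theorem order_bound [Finite G] {g x : G} {p t n : ℕ} [hp : Fact p.Prime] (H : Chain g x p t) (hn : 1 ≤ n)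
    (hZ : ∀ i : ℤ, 0 ≤ i → i < t → ∃ j : ℤ, -(n : ℤ) ≤ j ∧ j < t ∧ ¬ Commute (cj g x i) (cj g x j)) :
    t ≤ 3 * n ∧ t ≠ 3 * n - 1 := by
  classical
  rcases lt_or_ge t n with htn | htn
  · omega
  rcases Nat.eq_zero_or_pos t with ht | ht
  · omega
  obtain ⟨j, hj1, hj2, hj⟩ := hZ (((t - n) / 2 : ℕ) : ℤ) (by omega) (by omega)
  have hex : ∃ d : ℕ, ¬ Commute x (cj g x d) ∧ (d : ℤ) ≤ ((t + n) / 2 : ℕ) := by
    rcases le_total (((t - n) / 2 : ℕ) : ℤ) j with h | h
    · refine ⟨(j - ((t - n) / 2 : ℕ)).toNat, ?_, by omega⟩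
      rw [Int.toNat_of_nonneg (by omega), ← commute_cj]
      exact hj
    · refine ⟨((((t - n) / 2 : ℕ) : ℤ) - j).toNat, ?_, by omega⟩
      rw [Int.toNat_of_nonneg (by omega), ← commute_cj]
      exact fun h' => hj h'.symm
  obtain ⟨d, hd, hdle⟩ := hex
  have hex : ∃ e : ℕ, ¬ Commute x (cj g x e) := ⟨d, hd⟩
  set s := Nat.find hex
  have hs : ∀ e : ℕ, e < s → Commute x (cj g x e) := fun e he => not_not.mp (Nat.find_min hex he)
  have h := H.two_mul_le hs (Nat.find_spec hex)
  have hsd : s ≤ d := Nat.find_le (h := hex) hd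
  omega

end CfsgLib.GlauChain
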