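import Cfsg.Agent.Amalgam.SFourRecognition
import Cfsg.Agent.Constrained.Basic

/-!
A group whose 2-core is elementary abelian of order 4 or 8 with dihedral quotient, acting
nontrivially: modulo the odd core it is `S₄` or `S₄ × C₂`.
-/

set_option autoImplicit false

open Cfsg
open scoped Pointwise

namespace CfsgLib.GlauChain

variable {A : Type*} [Group A] [Finite A]

local instance : Fact (Nat.Prime 2) := ⟨Nat.prime_two⟩

omit [Finite A] in
theorem pow_odd_eq_self {q : A} (hq : q * q = 1) {m : ℕ} (hm : Odd m) : q ^ m = q := by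
  obtain ⟨l, rfl⟩ := hm
  rw [pow_succ, pow_mul, sq, hq, one_pow, one_mul]

theorem eq_one_of_odd_of_sq {q : A} (hq : q * q = 1) (ho : Odd (orderOf q)) : q = 1 := by
  rw [← pow_odd_eq_self hq ho, pow_orderOf_eq_one]

/-- A central elementary abelian 2-subgroup of odd index has an odd complement. -/
theorem exists_odd_complement {C Q : Subgroup A} (hQC : Q ≤ C) (hc : ∀ c ∈ C, ∀ q ∈ Q, c * q = q * c)
    (hQ2 : ∀ q ∈ Q, q * q = 1) (hodd : Odd (Q.relIndex C)) :
    ∃ O : Subgroup A, O ≤ C ∧ Nat.card ↥O = Q.relIndex C ∧ (C.Normal → O.Normal) ∧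
      (∀ c ∈ C, ∃ q ∈ Q, ∃ o ∈ O, c = q * o) ∧ ∀ c ∈ C, Odd (orderOf c) → c ∈ O := by
  classical
  set Q' := Q.subgroupOf C with hQ'
  have hQ'c : Q' ≤ Subgroup.center ↥C := fun q hq =>
    Subgroup.mem_center_iff.mpr fun c => Subtype.ext (hc c c.2 q hq)
  haveI : Q'.Normal := ⟨fun q hq c => by
    rw [show c * q * c⁻¹ = q by rw [Subgroup.mem_center_iff.mp (hQ'c hq) c, mul_inv_cancel_right]]
    exact hq⟩
  obtain ⟨m, hm⟩ : ∃ m, Q.relIndex C = m := ⟨_, rfl⟩
  rw [hm] at hodd ⊢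
  obtain ⟨j, hj⟩ : (Subgroup.center ↥C).index ∣ m := hm ▸ Subgroup.index_dvd_of_le hQ'c
  have hmQ : ∀ c : ↥C, c ^ m ∈ Q' := fun c => hm ▸ Q'.pow_index_mem c
  have hmul : ∀ c d : ↥C, (c * d) ^ m = c ^ m * d ^ m := by
    intro c d
    have h : Commute (c ^ (Subgroup.center ↥C).index) (d ^ (Subgroup.center ↥C).index) :=
      (Subgroup.mem_center_iff.mp ((Subgroup.center ↥C).pow_index_mem c) _).symm
    have e := congrArg Subtype.val (map_mul (MonoidHom.transferCenterPow ↥C) c d)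
    rw [Subgroup.coe_mul, MonoidHom.transferCenterPow_apply, MonoidHom.transferCenterPow_apply,
      MonoidHom.transferCenterPow_apply] at e
    rw [hj, pow_mul, pow_mul, pow_mul, e, h.mul_pow]
  let f : ↥C →* ↥C := { toFun := fun c => c ^ m, map_one' := one_pow m, map_mul' := hmul }
  have hfix : ∀ q ∈ Q', f q = q := fun q hq =>
    pow_odd_eq_self (Subtype.ext (hQ2 q hq)) hodd
  have hrange : f.range = Q' := le_antisymm (by rintro _ ⟨c, rfl⟩; exact hmQ c)
    fun q hq => ⟨q, hfix q hq⟩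
  have hker : Nat.card ↥f.ker = m := by
    have h1 := f.ker.card_mul_index
    rw [Subgroup.index_ker, hrange] at h1
    have h2 := Q'.card_mul_index
    rw [show Q'.index = m from hm, ← h1, mul_comm (Nat.card ↥f.ker)] at h2
    exact (Nat.eq_of_mul_eq_mul_left Nat.card_pos h2).symm
  refine ⟨f.ker.map C.subtype, Subgroup.map_subtype_le _, ?_, fun hC => ⟨?_⟩, fun c hcC => ?_, fun c hcC hco => ?_⟩
  · rw [Subgroup.card_map_of_injective C.subtype_injective, hker]
  · rintro _ ⟨c, hcf, rfl⟩ a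
    refine ⟨⟨a * c * a⁻¹, hC.conj_mem c c.2 a⟩, ?_, rfl⟩
    refine Subtype.ext ?_
    show (a * (c : A) * a⁻¹) ^ m = 1
    have h : (c : A) ^ m = 1 := congrArg Subtype.val hcf
    rw [conj_pow, h, mul_one, mul_inv_cancel]
  · refine ⟨c ^ m, hmQ ⟨c, hcC⟩, (c ^ m)⁻¹ * c, ?_, (mul_inv_cancel_left _ _).symm⟩
    refine ⟨(⟨c, hcC⟩ ^ m)⁻¹ * ⟨c, hcC⟩, ?_, rfl⟩
    show f ((⟨c, hcC⟩ ^ m)⁻¹ * ⟨c, hcC⟩) = 1
    rw [map_mul, map_inv, hfix _ (hmQ _)]
    exact inv_mul_cancel _
  · refine ⟨⟨c, hcC⟩, ?_, rfl⟩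
    refine Subtype.ext ?_
    show c ^ m = 1
    refine eq_one_of_odd_of_sq (hQ2 _ (hmQ ⟨c, hcC⟩)) ?_
    exact Odd.of_dvd_nat hco (orderOf_pow_dvd m)

theorem dihedral_gen {n : ℕ} (i : ZMod n) (X : Subgroup (DihedralGroup n))
    (hr : DihedralGroup.r 1 ∈ X) (hs : DihedralGroup.sr i ∈ X) (hn : n ≠ 0) : X = ⊤ := by
  haveI : NeZero n := ⟨hn⟩
  have hrj : ∀ j : ZMod n, DihedralGroup.r j ∈ X := fun j => by
    have h := pow_mem hr j.val
    rwa [DihedralGroup.r_one_pow, ZMod.natCast_zmod_val] at h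
  refine eq_top_iff.mpr fun x _ => ?_
  rcases x with j | j
  · exact hrj j
  · have h := mul_mem (hrj (i - j)) hs
    rwa [DihedralGroup.r_mul_sr, sub_sub_cancel] at h

theorem dihedral_r_one_mem {n : ℕ} (hn : Odd n) (X : Subgroup (DihedralGroup n))
    (h : DihedralGroup.r (2 : ZMod n) ∈ X) : DihedralGroup.r 1 ∈ X := by
  obtain ⟨l, hl⟩ := hn
  have h2 := pow_mem h (l + 1)
  have e : ∀ j : ℕ, (DihedralGroup.r (2 : ZMod n)) ^ j = DihedralGroup.r ((2 * j : ℕ) : ZMod n) := by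
    intro j
    induction j with
    | zero => simp
    | succ j ih => rw [pow_succ, ih, DihedralGroup.r_mul_r]; push_cast; ring_nf
  rw [e, show 2 * (l + 1) = n + 1 by omega, Nat.cast_add, ZMod.natCast_self, zero_add, Nat.cast_one] at h2
  exact h2

theorem exists_sr {n : ℕ} (hn : Odd n) {d : DihedralGroup n} (hd : d * d = 1) (hd1 : d ≠ 1) :
    ∃ i, d = DihedralGroup.sr i := by
  rcases d with i | i
  · exfalso
    refine hd1 ?_
    rw [← pow_odd_eq_self hd hn, DihedralGroup.r_pow, ZMod.natCast_self, mul_zero, DihedralGroup.r_zero]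
  · exact ⟨i, rfl⟩

/-- The quotient by the odd core. -/
theorem dihedral_quotient {Q : Subgroup A} [Q.Normal] {n : ℕ} (hn : Odd n)
    (φ : A →* DihedralGroup n) (hφ : Function.Surjective φ) (hker : φ.ker = Q)
    (hQ2 : ∀ q ∈ Q, q * q = 1) {k : ℕ} (hk : k = 1 ∨ k = 2) (hQc : Nat.card ↥Q = 4 * k)
    (hZc : Nat.card ↥(Q ⊓ Subgroup.center A) = k) {a b : A} (ha : φ a = DihedralGroup.r 1)
    (hb : b * b = 1) (hbQ : b ∉ Q) (hmove : ∃ q ∈ Q, a * q ≠ q * a) :
    Nonempty (A ⧸ oddCore A ≃* Equiv.Perm (Fin 4)) ∨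
      Nonempty (A ⧸ oddCore A ≃* Equiv.Perm (Fin 4) × Multiplicative (ZMod 2)) := by
  classical
  haveI : NeZero n := ⟨by rintro rfl; exact absurd hn (by decide)⟩
  have hcomm : ∀ x ∈ Q, ∀ y ∈ Q, x * y = y * x := fun x hx y hy => by
    have e := hQ2 _ (mul_mem hx hy)
    calc x * y = (x * y)⁻¹ := (inv_eq_of_mul_eq_one_right e).symm
      _ = y * x := by
        rw [mul_inv_rev, inv_eq_of_mul_eq_one_right (hQ2 x hx), inv_eq_of_mul_eq_one_right (hQ2 y hy)]
  set C := Subgroup.centralizer (Q : Set A) with hC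
  haveI hCn : C.Normal := ⟨fun c hc x => Subgroup.mem_centralizer_iff.mpr fun q hq => by
    have h := Subgroup.mem_centralizer_iff.mp hc _ (Subgroup.Normal.conj_mem ‹Q.Normal› q hq x⁻¹)
    rw [inv_inv] at h
    calc q * (x * c * x⁻¹) = x * (x⁻¹ * q * x * c) * x⁻¹ := by group
      _ = x * (c * (x⁻¹ * q * x)) * x⁻¹ := by rw [h]
      _ = x * c * x⁻¹ * q := by group⟩
  have hmemC : ∀ {c : A}, (∀ q ∈ Q, c * q = q * c) → c ∈ C := fun h =>
    Subgroup.mem_centralizer_iff.mpr fun q hq => (h q hq).symm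
  have hCc : ∀ c ∈ C, ∀ q ∈ Q, c * q = q * c := fun c hc q hq => (Subgroup.mem_centralizer_iff.mp hc q hq).symm
  have hQC : Q ≤ C := fun q hq => hmemC (hcomm q hq)
  have haC : a ∉ C := fun h => hmove.elim fun q hq => hq.2 (hCc a h q hq.1)
  obtain ⟨i, hi⟩ := exists_sr hn (d := φ b) (by rw [← map_mul, hb, map_one]) (fun h => hbQ (hker ▸ h))
  have hlift : ∀ {x : A} {X : Subgroup A}, Q ≤ X → φ x ∈ X.map φ → x ∈ X := fun {x X} hX ⟨y, hy, e⟩ => by
    have h1 : y⁻¹ * x ∈ Q := hker ▸ (by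
      show φ (y⁻¹ * x) = 1
      rw [map_mul, map_inv, e, inv_mul_cancel])
    simpa using mul_mem hy (hX h1)
  have hbC : b ∉ C := fun h => by
    have h1 : φ b ∈ C.map φ := Subgroup.mem_map_of_mem φ h
    have h2 : φ (a * b * a⁻¹) ∈ C.map φ := Subgroup.mem_map_of_mem φ (hCn.conj_mem b h a)
    have h3 := mul_mem h2 h1
    rw [map_mul, map_mul, map_inv, ha, hi, DihedralGroup.inv_r, DihedralGroup.r_mul_sr,
      DihedralGroup.sr_mul_r, DihedralGroup.sr_mul_sr, show i - (i - 1 + -1) = (2 : ZMod n) by ring] at h3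
    exact haC (hlift hQC (ha ▸ dihedral_r_one_mem hn _ h3))
  -- `a ^ 3` centralizes `Q`
  set Z := Q ⊓ Subgroup.center A with hZ
  haveI : Z.Normal := Subgroup.normal_inf_normal _ _
  set π := QuotientGroup.mk' Z with hπ
  haveI : (Q.map π).Normal := Subgroup.Normal.map inferInstance π (QuotientGroup.mk'_surjective _)
  have hk0 : 0 < k := by rcases hk with e | e <;> omega
  have hQbar : Nat.card ↥(Q.map π) = 4 := by
    have h1 := (π.subgroupMap Q).ker.card_mul_index
    rw [Subgroup.index_ker, MonoidHom.range_eq_top.mpr (π.subgroupMap_surjective Q), Subgroup.card_top] at h1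
    have h2 : Nat.card ↥(π.subgroupMap Q).ker = k := by
      rw [← hZc, ← Nat.card_congr (Subgroup.subgroupOfEquivOfLe (inf_le_left : Z ≤ Q)).toEquiv]
      congr 1
      congr 1
      ext q
      rw [MonoidHom.mem_ker, Subgroup.mem_subgroupOf, ← QuotientGroup.eq_one_iff (N := Z)]
      exact Subtype.ext_iff
    rw [h2, hQc] at h1
    exact Nat.eq_of_mul_eq_mul_left hk0 (h1.trans (mul_comm _ _))
  have h48 : a ^ 48 ∈ C := by
    have hperm : Nat.card (Equiv.Perm ↥(Q.map π)) = 24 := by rw [Nat.card_perm, hQbar]; rfl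
    have h24 : (MulAut.toPerm ↥(Q.map π)) (MulAut.conjNormal (π a) ^ 24) = 1 := by
      rw [map_pow, ← hperm]
      exact pow_card_eq_one'
    refine hmemC fun q hq => ?_
    have h1 := congrArg Subtype.val (Equiv.ext_iff.mp h24 ⟨π q, Subgroup.mem_map_of_mem π hq⟩)
    rw [← map_pow] at h1
    have h2 : π (a ^ 24 * q * (a ^ 24)⁻¹) = π q := by
      rw [map_mul, map_mul, map_inv, map_pow]
      exact h1
    obtain ⟨z, hz, e⟩ := (QuotientGroup.mk'_eq_mk' Z).mp h2.symm
    have hzc := Subgroup.mem_center_iff.mp hz.2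
    have e' : a ^ 48 * q * (a ^ 48)⁻¹ = q := by
      calc a ^ 48 * q * (a ^ 48)⁻¹ = a ^ 24 * (a ^ 24 * q * (a ^ 24)⁻¹) * (a ^ 24)⁻¹ := by group
        _ = a ^ 24 * (q * z) * (a ^ 24)⁻¹ := by rw [e]
        _ = a ^ 24 * q * (z * (a ^ 24)⁻¹) := by group
        _ = (a ^ 24 * q * (a ^ 24)⁻¹) * z := by rw [← hzc]; group
        _ = q := by rw [← e, mul_assoc, hQ2 z hz.1, mul_one]
    exact mul_inv_eq_iff_eq_mul.mp e'
  have hanC : a ^ n ∈ C := hQC (hker ▸ (by
    show φ (a ^ n) = 1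
    rw [map_pow, ha, DihedralGroup.r_one_pow, ZMod.natCast_self, DihedralGroup.r_zero]))
  set ρ := QuotientGroup.mk' C with hρ
  haveI : Fact (Nat.Prime 3) := ⟨Nat.prime_three⟩
  have hα : orderOf (ρ a) = 3 := by
    have h1 : orderOf (ρ a) ∣ 48 := orderOf_dvd_of_pow_eq_one (by
      rw [← map_pow]; exact (QuotientGroup.eq_one_iff _).mpr h48)
    have h2 : orderOf (ρ a) ∣ n := orderOf_dvd_of_pow_eq_one (by
      rw [← map_pow]; exact (QuotientGroup.eq_one_iff _).mpr hanC)
    have h4 : (orderOf (ρ a)).Coprime 16 :=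
      (Nat.coprime_pow_right_iff (show 0 < 4 by norm_num) _ 2).mpr
        (Nat.coprime_two_right.mpr (Odd.of_dvd_nat hn h2))
    rcases (Nat.dvd_prime Nat.prime_three).mp (h4.dvd_of_dvd_mul_left (show orderOf (ρ a) ∣ 16 * 3 from h1)) with e | e
    · exact absurd ((QuotientGroup.eq_one_iff _).mp (orderOf_eq_one_iff.mp e)) haC
    · exact e
  have hβ : orderOf (ρ b) = 2 := orderOf_eq_prime (by rw [sq, ← map_mul, hb, map_one])
    fun h => hbC ((QuotientGroup.eq_one_iff _).mp h)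
  have hrel : ρ b * ρ a * (ρ b)⁻¹ = (ρ a)⁻¹ := by
    rw [eq_inv_iff_mul_eq_one, ← map_inv, ← map_mul, ← map_mul, ← map_mul]
    refine (QuotientGroup.eq_one_iff _).mpr (hQC (hker ▸ ?_))
    show φ (b * a * b⁻¹ * a) = 1
    rw [map_mul, map_mul, map_mul, map_inv, ha, hi, DihedralGroup.inv_sr, DihedralGroup.sr_mul_r,
      DihedralGroup.sr_mul_sr, DihedralGroup.r_mul_r, show i - (i + 1) + 1 = (0 : ZMod n) by ring,
      DihedralGroup.r_zero]
  have hidx : C.index = 6 := by
    have hn' : Subgroup.zpowers (ρ b) ≤ Subgroup.normalizer (Subgroup.zpowers (ρ a) : Set (A ⧸ C)) := by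
      rw [Subgroup.zpowers_le, Subgroup.mem_normalizer_iff_map_conj_eq, MonoidHom.map_zpowers]
      show Subgroup.zpowers (ρ b * ρ a * (ρ b)⁻¹) = _
      rw [hrel, Subgroup.zpowers_inv]
    have htop : Subgroup.zpowers (ρ a) ⊔ Subgroup.zpowers (ρ b) = ⊤ := by
      refine eq_top_iff.mpr fun x _ => ?_
      obtain ⟨y, rfl⟩ := QuotientGroup.mk'_surjective C x
      set X := (Subgroup.zpowers (ρ a) ⊔ Subgroup.zpowers (ρ b)).comap ρ with hX
      have hQX : Q ≤ X := fun q hq => by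
        show ρ q ∈ Subgroup.zpowers (ρ a) ⊔ Subgroup.zpowers (ρ b)
        rw [show ρ q = 1 from (QuotientGroup.eq_one_iff _).mpr (hQC hq)]
        exact one_mem _
      have htopX : X.map φ = ⊤ := dihedral_gen i _
        ⟨a, Subgroup.mem_sup_left (Subgroup.mem_zpowers _), ha⟩
        ⟨b, Subgroup.mem_sup_right (Subgroup.mem_zpowers _), hi⟩ (NeZero.ne n)
      exact hlift hQX (htopX ▸ Subgroup.mem_top (φ y))
    have hle : C.index ≤ 6 := by
      rw [Subgroup.index_eq_card]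
      calc Nat.card (A ⧸ C) = Nat.card ↥(Subgroup.zpowers (ρ a) ⊔ Subgroup.zpowers (ρ b)) := by
            rw [htop, Subgroup.card_top]
        _ = Nat.card ((Subgroup.zpowers (ρ a) : Set (A ⧸ C)) * (Subgroup.zpowers (ρ b) : Set (A ⧸ C)) : Set (A ⧸ C)) :=
            Nat.card_congr (Equiv.setCongr (Subgroup.coe_mul_of_right_le_normalizer_left _ _ hn'))
        _ ≤ Nat.card ↥(Subgroup.zpowers (ρ a)) * Nat.card ↥(Subgroup.zpowers (ρ b)) := Set.natCard_mul_le
        _ = 6 := by rw [Nat.card_zpowers, Nat.card_zpowers, hα, hβ]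
    have hdvd : 6 ∣ C.index := Nat.Coprime.mul_dvd_of_dvd_of_dvd (by norm_num : (3 : ℕ).Coprime 2)
      (hα ▸ orderOf_dvd_natCard (ρ a)) (hβ ▸ orderOf_dvd_natCard (ρ b))
    exact le_antisymm hle (Nat.le_of_dvd (Nat.pos_of_ne_zero Subgroup.index_ne_zero_of_finite) hdvd)
  have hQidx : Q.index = 2 * n := by
    rw [← hker, Subgroup.index_ker, MonoidHom.range_eq_top.mpr hφ, Subgroup.card_top, DihedralGroup.nat_card]
  have hm : Odd (Q.relIndex C) := by
    have h := Subgroup.relIndex_mul_index hQC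
    rw [hidx, hQidx] at h
    have h' : n = 3 * Q.relIndex C := by omega
    exact (Nat.odd_mul.mp (h' ▸ hn)).2
  obtain ⟨O, hOC, hOcard, hOn, hsplit, hOodd⟩ := exists_odd_complement hQC hCc hQ2 hm
  -- the odd core
  have hQO : ∀ x ∈ Q, x ∈ oddCore A → x = 1 := fun x hx hxo => eq_one_of_odd_of_sq (hQ2 x hx) (by
    rw [← Nat.not_even_iff_odd, even_iff_two_dvd]
    intro h2
    refine CfsgLib.Constrained.pPrimeCore_not_dvd (p := 2) (G := A) (h2.trans ?_)
    rw [← Nat.card_zpowers]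
    exact Subgroup.card_dvd_of_le (Subgroup.zpowers_le.mpr hxo))
  haveI hON : (oddCore A).Normal := (inferInstance : (oddCore A).Normal)
  have hcore : oddCore A = O := by
    refine le_antisymm (fun e he => ?_) ?_
    · have heC : e ∈ C := hmemC fun q hq => by
        have h1 : e * q * e⁻¹ * q⁻¹ ∈ Q := mul_mem (Subgroup.Normal.conj_mem ‹Q.Normal› q hq e) (inv_mem hq)
        have h2 : e * q * e⁻¹ * q⁻¹ ∈ oddCore A := by
          have h := mul_mem he (hON.conj_mem _ (inv_mem he) q)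
          simpa [mul_assoc] using h
        exact mul_inv_eq_iff_eq_mul.mp (mul_inv_eq_one.mp (hQO _ h1 h2))
      refine hOodd e heC ?_
      rw [← Nat.not_even_iff_odd, even_iff_two_dvd]
      intro h2
      refine CfsgLib.Constrained.pPrimeCore_not_dvd (p := 2) (G := A) (h2.trans ?_)
      rw [← Nat.card_zpowers]
      exact Subgroup.card_dvd_of_le (Subgroup.zpowers_le.mpr he)
    · refine CfsgLib.Constrained.le_pPrimeCore (hOn hCn) ?_
      rw [hOcard]
      exact Nat.coprime_two_right.mpr hm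
  set f := QuotientGroup.mk' (oddCore A) with hf
  haveI : (Q.map f).Normal := Subgroup.Normal.map inferInstance f (QuotientGroup.mk'_surjective _)
  have hinj : ∀ x ∈ Q, f x = 1 → x = 1 := fun x hx h => hQO x hx ((QuotientGroup.eq_one_iff _).mp h)
  have hfQ : ∀ X : Subgroup A, X ≤ Q → Nat.card ↥(X.map f) = Nat.card ↥X := fun X hX => by
    refine (Nat.card_congr (MulEquiv.ofBijective (f.subgroupMap X) ⟨?_, f.subgroupMap_surjective X⟩).toEquiv).symm
    intro x y h
    have h' : f x = f y := congrArg Subtype.val h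
    exact Subtype.ext (inv_mul_eq_one.mp (hinj _ (hX (mul_mem (inv_mem x.2) y.2)) (by
      rw [map_mul, map_inv, h', inv_mul_cancel])))
  have hdata : CfsgLib.Amalgam.SFourData (Q.map f) (f b) k :=
    { sq := by
        rintro _ ⟨q, hq, rfl⟩
        rw [← map_mul, hQ2 q hq, map_one]
      cardG := by
        rw [hfQ Q le_rfl]
        have h1 := (oddCore A).card_mul_index
        rw [← Subgroup.index_eq_card]
        have h2 := Q.card_mul_index
        rw [hcore, hOcard, ← h2, ← Subgroup.relIndex_mul_index hQC, hidx] at h1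
        refine Nat.eq_of_mul_eq_mul_left hm.pos (hcore ▸ ?_)
        rw [h1]; ring
      cardQ := by rw [hfQ Q le_rfl, hQc]
      cardK := by
        rw [← hZc, ← hfQ Z inf_le_left]
        congr 1
        congr 1
        refine le_antisymm ?_ ?_
        · rintro _ ⟨⟨q, hq, rfl⟩, hqc⟩
          refine ⟨q, ⟨hq, Subgroup.mem_center_iff.mpr fun x => ?_⟩, rfl⟩
          have h1 : f (x * q * x⁻¹ * q⁻¹) = 1 := by
            rw [map_mul, map_mul, map_mul, map_inv, map_inv, Subgroup.mem_center_iff.mp hqc (f x)]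
            group
          have h2 := hinj _ (mul_mem (Subgroup.Normal.conj_mem ‹Q.Normal› q hq x) (inv_mem hq)) h1
          exact mul_inv_eq_iff_eq_mul.mp (mul_inv_eq_one.mp h2)
        · rintro _ ⟨z, hz, rfl⟩
          refine ⟨Subgroup.mem_map_of_mem f hz.1, Subgroup.mem_center_iff.mpr fun y => ?_⟩
          obtain ⟨x, rfl⟩ := QuotientGroup.mk'_surjective _ y
          rw [← map_mul, ← map_mul, Subgroup.mem_center_iff.mp hz.2 x]
      small := hk
      self_centralizing := fun y hy => by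
        obtain ⟨x, rfl⟩ := QuotientGroup.mk'_surjective _ y
        have hxC : x ∈ C := hmemC fun q hq => by
          have h1 : f (x * q * x⁻¹ * q⁻¹) = 1 := by
            have e : f q * f x = f x * f q :=
              Subgroup.mem_centralizer_iff.mp hy (f q) (Subgroup.mem_map_of_mem f hq)
            rw [map_mul, map_mul, map_mul, map_inv, map_inv, ← e]
            group
          exact mul_inv_eq_iff_eq_mul.mp (mul_inv_eq_one.mp
            (hinj _ (mul_mem (Subgroup.Normal.conj_mem ‹Q.Normal› q hq x) (inv_mem hq)) h1))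
        obtain ⟨q, hq, o, ho, rfl⟩ := hsplit x hxC
        refine ⟨q, hq, ?_⟩
        rw [map_mul, show f o = 1 from (QuotientGroup.eq_one_iff _).mpr (hcore ▸ ho), mul_one]
      invol := by rw [← map_mul, hb, map_one]
      outside := by
        rintro ⟨q, hq, e⟩
        have h1 : q⁻¹ * b ∈ oddCore A := (QuotientGroup.eq_one_iff _).mp (by
          show f (q⁻¹ * b) = 1
          rw [map_mul, map_inv, e, inv_mul_cancel])
        exact hbC (mul_inv_cancel_left q b ▸ mul_mem (hQC hq) (hOC (hcore ▸ h1))) }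
  obtain ⟨h1, h2⟩ := hdata.structure_thm
  rcases hk with e | e
  · exact Or.inl (h1 e)
  · obtain ⟨ψ⟩ := h2 e
    exact Or.inr ⟨ψ.trans MulEquiv.prodComm⟩

end CfsgLib.GlauChain
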