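import Cfsg.Agent.GlauChain.Basic
import Cfsg.Agent.GlauChain.Quotient

/-!
A subgroup with dihedral quotient by its 2-core whose Sylow 2-subgroup is normalized by an outside
element normalizing nothing in between: the Sylow subgroup has order 4, 8 or 16.
-/

set_option autoImplicit false

open Cfsg
open scoped Pointwise

namespace CfsgLib.GlauChain

variable {G : Type*} [Group G] [Finite G]

local instance : Fact (Nat.Prime 2) := ⟨Nat.prime_two⟩

theorem dihedral_not_even {n : ℕ} (hn : 2 ≤ n) (h : pCore 2 (DihedralGroup n) = ⊥) : Odd n := by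
  by_contra he
  rw [Nat.not_odd_iff_even] at he
  obtain ⟨l, hl⟩ := he
  haveI : NeZero n := ⟨by omega⟩
  set z : DihedralGroup n := DihedralGroup.r (l : ZMod n) with hz
  have h2l : (l : ZMod n) + l = 0 := by rw [← Nat.cast_add, ← hl, ZMod.natCast_self]
  have hz2 : z * z = 1 := by rw [hz, DihedralGroup.r_mul_r, h2l, DihedralGroup.r_zero]
  have hz1 : z ≠ 1 := by
    intro e
    rw [hz, DihedralGroup.one_def, DihedralGroup.r.injEq, ZMod.natCast_eq_zero_iff] at e
    have := Nat.le_of_dvd (by omega) e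
    omega
  have hneg : -(l : ZMod n) = l := neg_eq_of_add_eq_zero_right h2l
  have hzc : ∀ x : DihedralGroup n, x * z = z * x := by
    rintro (i | i)
    · rw [hz, DihedralGroup.r_mul_r, DihedralGroup.r_mul_r, add_comm]
    · rw [hz, DihedralGroup.sr_mul_r, DihedralGroup.r_mul_sr, sub_eq_add_neg, hneg]
  refine hz1 ?_
  have hle : Subgroup.zpowers z ≤ pCore 2 (DihedralGroup n) := by
    refine CfsgLib.Constrained.le_pCore ⟨fun y hy x => ?_⟩
      (IsPGroup.of_card (n := 1) (by rw [Nat.card_zpowers, pow_one]; exact orderOf_eq_prime (by rw [sq, hz2]) hz1))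
    obtain ⟨j, rfl⟩ := hy
    show x * z ^ j * x⁻¹ ∈ Subgroup.zpowers z
    rw [((show Commute x z from hzc x).zpow_right j).eq, mul_inv_cancel_right]
    exact zpow_mem (Subgroup.mem_zpowers z) j
  have := hle (Subgroup.mem_zpowers z)
  rwa [h, Subgroup.mem_bot] at this

/-- The conclusion in a normalized form. -/
theorem dihedral_core_bound (H : Subgroup G) (hO : pCore 2 ↥H ≠ ⊥) (n : ℕ) (hn : 2 ≤ n)
    (e : ↥H ⧸ pCore 2 ↥H ≃* DihedralGroup n) (P : Subgroup G) (hPH : P ≤ H) (hP : IsPGroup 2 P)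
    (hPsyl : ¬ 2 ∣ P.relIndex H) (y : G)
    (hy2 : y ^ 2 ∈ P ⊔ Subgroup.centralizer (P : Set G)) (hyN : MulAut.conj y • P = P)
    (hyQ : ∀ Q : Subgroup G, Q ≤ P → (Q.subgroupOf H).Normal → MulAut.conj y • Q = Q → Q = ⊥) :
    (Nat.card P = 4 ∨ Nat.card P = 8 ∨ Nat.card P = 16) ∧
    (Nonempty (↥H ⧸ oddCore ↥H ≃* Multiplicative (ZMod 2) × Multiplicative (ZMod 2)) ∨
     Nonempty (↥H ⧸ oddCore ↥H ≃* Equiv.Perm (Fin 4)) ∨
     Nonempty (↥H ⧸ oddCore ↥H ≃* Equiv.Perm (Fin 4) × Multiplicative (ZMod 2))) := by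
  classical
  have hsm : ∀ (c : G) (X : Subgroup G), MulAut.conj c • X = X.map (MulAut.conj c).toMonoidHom := fun _ _ => rfl
  have hcmap : ∀ {c z : G} {X : Subgroup G},
      z ∈ X.map (MulAut.conj c).toMonoidHom ↔ c⁻¹ * z * c ∈ X := fun {c z X} => by
    constructor
    · rintro ⟨w, hw, rfl⟩; simpa [mul_assoc] using hw
    · intro h; exact ⟨_, h, by simp [mul_assoc]⟩
  set φ : ↥H →* DihedralGroup n := e.toMonoidHom.comp (QuotientGroup.mk' (pCore 2 ↥H)) with hφdef
  have hφ : Function.Surjective φ := e.surjective.comp (QuotientGroup.mk'_surjective _)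
  have hker : φ.ker = pCore 2 ↥H := by
    ext z
    rw [MonoidHom.mem_ker, hφdef, MonoidHom.comp_apply, MulEquiv.coe_toMonoidHom, MulEquiv.map_eq_one_iff]
    exact QuotientGroup.eq_one_iff z
  haveI : NeZero n := ⟨by omega⟩
  have hnodd : Odd n := by
    refine dihedral_not_even hn ?_
    refine (Subgroup.eq_bot_iff_forall _).2 fun d hd => ?_
    have hle : (pCore 2 (DihedralGroup n)).map e.symm.toMonoidHom ≤ pCore 2 (↥H ⧸ pCore 2 ↥H) :=
      CfsgLib.Constrained.le_pCore (Subgroup.Normal.map inferInstance _ e.symm.surjective)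
        (CfsgLib.Constrained.isPGroup_pCore.map _)
    have h1 := hle (Subgroup.mem_map_of_mem _ hd)
    rw [CfsgLib.Constrained.pCore_quotient_pCore, Subgroup.mem_bot] at h1
    exact e.symm.map_eq_one_iff.mp h1
  set Q : Subgroup G := (pCore 2 ↥H).map H.subtype with hQ
  have hQH : Q ≤ H := Subgroup.map_subtype_le _
  have hQn : H ≤ Subgroup.normalizer (Q : Set G) := by
    intro z hz
    refine Subgroup.mem_normalizer_iff_map_conj_eq.mpr (Subgroup.eq_of_le_of_card_ge ?_
      (Subgroup.card_map_of_injective (MulAut.conj z).injective).ge)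
    rintro _ ⟨_, ⟨w, hw, rfl⟩, rfl⟩
    exact ⟨⟨z, hz⟩ * w * ⟨z, hz⟩⁻¹, Subgroup.Normal.conj_mem inferInstance w hw _, rfl⟩
  have hQp : IsPGroup 2 Q := CfsgLib.Constrained.isPGroup_pCore.map _
  have hQP : Q ≤ P := by
    have hsup : IsPGroup 2 ↥(P ⊔ Q) := hP.to_sup_of_normal_right' hQp (hPH.trans hQn)
    refine sup_eq_left.mp ?_
    refine (Subgroup.eq_of_le_of_card_ge le_sup_left ?_).symm
    have h1 := Subgroup.relIndex_mul_relIndex P (P ⊔ Q) H le_sup_left (sup_le hPH hQH)
    have h2 := Subgroup.relIndex_mul_relIndex ⊥ P (P ⊔ Q) bot_le le_sup_left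
    rw [Subgroup.relIndex_bot_left, Subgroup.relIndex_bot_left] at h2
    obtain ⟨a, ha⟩ := hsup.index (P.subgroupOf (P ⊔ Q))
    rw [Subgroup.relIndex] at h1 h2
    rw [ha] at h1 h2
    rcases a with _ | a
    · rw [pow_zero, mul_one] at h2
      exact h2.ge
    · exact absurd ((dvd_pow_self 2 (Nat.succ_ne_zero a)).trans (Dvd.intro _ h1)) hPsyl
  -- images
  have himg : ∀ z : ↥H, (z : G) ∈ P → φ z * φ z = 1 := by
    intro z hz
    obtain ⟨j, hj⟩ := hP ⟨z, hz⟩
    have hzj : z ^ 2 ^ j = 1 := Subtype.ext (by simpa using congrArg Subtype.val hj)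
    have h1 : φ z ^ 2 ^ j = 1 := by rw [← map_pow, hzj, map_one]
    rcases hzd : φ z with i | i
    · rw [hzd] at h1
      have h2 : orderOf (DihedralGroup.r i) ∣ n :=
        orderOf_dvd_of_pow_eq_one (by rw [DihedralGroup.r_pow, ZMod.natCast_self, mul_zero, DihedralGroup.r_zero])
      have h3 : (orderOf (DihedralGroup.r i)).Coprime (2 ^ j) :=
        (Nat.coprime_two_right.mpr (Odd.of_dvd_nat hnodd h2)).pow_right j
      rw [orderOf_eq_one_iff.mp (Nat.eq_one_of_dvd_coprimes h3 dvd_rfl (orderOf_dvd_of_pow_eq_one h1))]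
      exact mul_one 1
    · exact DihedralGroup.sr_mul_self i
  have hQmem : ∀ z : ↥H, φ z = 1 → (z : G) ∈ Q := fun z hz => ⟨z, hker ▸ hz, rfl⟩
  have hφQ : ∀ z : ↥H, (z : G) ∈ Q → φ z = 1 := by
    rintro z ⟨w, hw, hwe⟩
    rw [show z = w from Subtype.ext hwe.symm]
    rw [← MonoidHom.mem_ker, hker]
    exact hw
  obtain ⟨p₀, hp₀, hp₀Q⟩ : ∃ z ∈ P, z ∉ Q := by
    refine Set.not_subset.mp fun hle => hPsyl ?_
    obtain rfl : P = Q := le_antisymm hle hQP
    have h1 : Q.relIndex H = 2 * n := by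
      rw [Subgroup.relIndex, hQ, ← Subgroup.comap_subtype, Subgroup.comap_map_eq_self_of_injective H.subtype_injective,
        ← hker, Subgroup.index_ker, MonoidHom.range_eq_top.mpr hφ, Subgroup.card_top, DihedralGroup.nat_card]
    exact h1 ▸ Dvd.intro n rfl
  obtain ⟨i₀, hi₀⟩ := exists_sr hnodd (himg ⟨p₀, hPH hp₀⟩ hp₀) (fun h => hp₀Q (hQmem _ h))
  have hPimg : ∀ z : ↥H, (z : G) ∈ P → φ z = 1 ∨ φ z = DihedralGroup.sr i₀ := by
    intro z hz
    rcases eq_or_ne (φ z) 1 with h | h
    · exact Or.inl h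
    obtain ⟨i, hi⟩ := exists_sr hnodd (himg z hz) h
    have h2 := himg (z * ⟨p₀, hPH hp₀⟩) (mul_mem hz hp₀)
    rw [map_mul, hi, hi₀, DihedralGroup.sr_mul_sr] at h2
    have h3 : DihedralGroup.r (i₀ - i) = 1 := by
      rw [← pow_odd_eq_self h2 hnodd, DihedralGroup.r_pow, ZMod.natCast_self, mul_zero, DihedralGroup.r_zero]
    rw [DihedralGroup.one_def, DihedralGroup.r.injEq, sub_eq_zero] at h3
    exact Or.inr (h3 ▸ hi)
  obtain ⟨hh, hhφ⟩ := hφ (DihedralGroup.r 1)
  set h : G := (hh : G) with hhdef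
  -- `P` and its conjugate meet in `Q` and generate `H`
  set P' := P.map (MulAut.conj h).toMonoidHom with hP'
  have hP'H : P' ≤ H := by
    rintro _ ⟨w, hw, rfl⟩
    exact mul_mem (mul_mem hh.2 (hPH hw)) (inv_mem hh.2)
  have hconj_img : φ (hh * ⟨p₀, hPH hp₀⟩ * hh⁻¹) = DihedralGroup.sr (i₀ - 2) := by
    rw [map_mul, map_mul, map_inv, hhφ, hi₀, DihedralGroup.inv_r, DihedralGroup.r_mul_sr, DihedralGroup.sr_mul_r,
      show i₀ - 1 + -1 = i₀ - 2 by ring]
  have hne2 : DihedralGroup.r (2 : ZMod n) ≠ 1 := fun h => by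
    have h' := dihedral_r_one_mem hnodd ⊥ (Subgroup.mem_bot.mpr h)
    rw [Subgroup.mem_bot, DihedralGroup.one_def, DihedralGroup.r.injEq] at h'
    haveI : Fact (1 < n) := ⟨by omega⟩
    exact one_ne_zero h'
  have hinter : P ⊓ P' = Q := by
    refine le_antisymm (fun z hz => ?_) (le_inf hQP fun z hz => hcmap.mpr (hQP ?_))
    · have hzH : z ∈ H := hPH hz.1
      refine hQmem ⟨z, hzH⟩ ((hPimg ⟨z, hzH⟩ hz.1).resolve_right fun he => hne2 ?_)
      obtain ⟨w, hw, hwe⟩ := hz.2
      have he2 : φ ⟨z, hzH⟩ = φ hh * φ ⟨w, hPH hw⟩ * (φ hh)⁻¹ := by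
        rw [← map_inv, ← map_mul, ← map_mul]
        exact congrArg φ (Subtype.ext hwe.symm)
      rcases hPimg ⟨w, hPH hw⟩ hw with e1 | e1
      · rw [he, e1, mul_one, mul_inv_cancel, DihedralGroup.one_def] at he2
        cases he2
      · rw [he, e1, hhφ, DihedralGroup.inv_r, DihedralGroup.r_mul_sr, DihedralGroup.sr_mul_r,
          DihedralGroup.sr.injEq] at he2
        rw [show (2 : ZMod n) = i₀ - (i₀ - 1 + -1) by ring, ← he2, sub_self, DihedralGroup.r_zero]
    · have h1 := (Subgroup.mem_normalizer_iff.mp (hQn (inv_mem hh.2)) z).mp hz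
      simpa using h1
  have hgenH : ∀ X : Subgroup G, P ≤ X → P' ≤ X → H ≤ X := by
    intro X hPX hP'X z hz
    have hX' : (X.comap H.subtype).map φ = ⊤ := by
      refine dihedral_gen i₀ _ (dihedral_r_one_mem hnodd _ ?_) ⟨⟨p₀, hPH hp₀⟩, hPX hp₀, hi₀⟩ (by omega)
      have h1 : DihedralGroup.sr (i₀ - 2) ∈ (X.comap H.subtype).map φ := by
        refine ⟨hh * ⟨p₀, hPH hp₀⟩ * hh⁻¹, hP'X ?_, hconj_img⟩
        exact ⟨p₀, hp₀, rfl⟩
      have h2 : DihedralGroup.sr i₀ ∈ (X.comap H.subtype).map φ := ⟨⟨p₀, hPH hp₀⟩, hPX hp₀, hi₀⟩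
      have h3 := mul_mem h1 h2
      rwa [DihedralGroup.sr_mul_sr, sub_sub_cancel] at h3
    obtain ⟨w, hw, hwe⟩ := (hX' ▸ Subgroup.mem_top (φ ⟨z, hz⟩) : φ ⟨z, hz⟩ ∈ (X.comap H.subtype).map φ)
    have h1 : ((w⁻¹ * ⟨z, hz⟩ : ↥H) : G) ∈ Q := hQmem _ (by rw [map_mul, map_inv, hwe, inv_mul_cancel])
    have h2 := mul_mem (show (w : G) ∈ X from hw) (hPX (hQP h1))
    simpa using h2
  have hQidx : Q.relIndex P = 2 := by
    rw [Subgroup.relIndex, Subgroup.index_eq_two_iff']
    refine ⟨⟨p₀, hp₀⟩, fun b => ?_⟩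
    have hbH : (b : G) ∈ H := hPH b.2
    rcases hPimg ⟨b, hbH⟩ b.2 with h1 | h1
    · refine Or.inr ⟨hQmem _ h1, fun h2 => hp₀Q ?_⟩
      have h3 := mul_mem (Subgroup.mem_subgroupOf.mp h2) (inv_mem (hQmem _ h1))
      simpa using h3
    · refine Or.inl ⟨Subgroup.mem_subgroupOf.mpr (hQmem (⟨p₀, hPH hp₀⟩ * ⟨b, hbH⟩) (by rw [map_mul, hi₀, h1, DihedralGroup.sr_mul_self])), fun h2 => ?_⟩
      have h3 := hφQ ⟨b, hbH⟩ h2
      rw [h1, DihedralGroup.one_def] at h3
      cases h3
  -- the chain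
  set g := h * y with hg
  have hgP : P.map (MulAut.conj g).toMonoidHom = P' := by
    rw [hg, map_mul, show (MulAut.conj h * MulAut.conj y).toMonoidHom =
      (MulAut.conj h).toMonoidHom.comp (MulAut.conj y).toMonoidHom from rfl, ← Subgroup.map_map, ← hsm y P, hyN]
  have hginv : ∀ X : Subgroup G, (X.map (MulAut.conj g⁻¹).toMonoidHom).map (MulAut.conj g).toMonoidHom = X := fun X => by
    rw [Subgroup.map_map, show (MulAut.conj g).toMonoidHom.comp (MulAut.conj g⁻¹).toMonoidHom = MonoidHom.id G by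
      ext z; simp [mul_assoc], Subgroup.map_id]
  have hRrel : (P ⊓ MulAut.conj g⁻¹ • P).relIndex (MulAut.conj g⁻¹ • P) = 2 := by
    rw [hsm, ← Subgroup.relIndex_map_map_of_injective (f := (MulAut.conj g).toMonoidHom) _ _ (MulAut.conj g).injective,
      Subgroup.map_inf _ _ _ (MulAut.conj g).injective, hginv]
    rw [hgP, inf_comm, hinter]
    exact hQidx
  have hyN' : y ∈ Subgroup.normalizer (P : Set G) := Subgroup.mem_normalizer_iff_map_conj_eq.mpr hyN
  obtain ⟨x, t, ht, C, hspan, hcard⟩ := exists_chain (P := P) (g := g) (p := 2)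
    (Subgroup.normal_of_index_eq_two hRrel) hRrel fun X hXP hXn hXg => by
      have hPX : P ≤ Subgroup.normalizer (X : Set G) := (Subgroup.normal_subgroupOf_iff_le_normalizer hXP).mp hXn
      have hgX : g ∈ Subgroup.normalizer (X : Set G) := Subgroup.mem_normalizer_iff_map_conj_eq.mpr hXg
      have hHX : H ≤ Subgroup.normalizer (X : Set G) := by
        refine hgenH _ hPX ?_
        rw [← hgP]
        rintro _ ⟨w, hw, rfl⟩
        exact mul_mem (mul_mem hgX (hPX hw)) (inv_mem hgX)
      have hyX : y ∈ Subgroup.normalizer (X : Set G) := by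
        have h1 := mul_mem (inv_mem (hHX hh.2)) hgX
        rwa [hg, inv_mul_cancel_left] at h1
      exact hyQ X hXP (Subgroup.normal_subgroupOf_of_le_normalizer hHX) (Subgroup.mem_normalizer_iff_map_conj_eq.mp hyX)
  have hgspn : ∀ a b : ℤ, (spn g x a b).map (MulAut.conj g).toMonoidHom = spn g x (1 + a) (1 + b) := fun a b => by
    rw [← spn_map a b 1, zpow_one]
  have hP'span : P' = spn g x 1 t := by
    rw [← hgP, ← hspan, hgspn]
    congr 1 <;> omega
  have hQspan : Q = spn g x 1 ((t : ℤ) - 1) := by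
    rw [← hinter, hP'span, ← hspan]
    refine le_antisymm (fun z hz => ?_) (le_inf (spn_mono (by omega) le_rfl) (spn_mono le_rfl (by omega)))
    obtain ⟨u, hu, v, hv, rfl⟩ := C.head_decomp (show (0 : ℤ) ≤ (t : ℤ) - 1 by omega) (by omega) hz.1
    rw [show (0 : ℤ) + 1 = 1 by omega] at hv
    -- `u` is `1` or the generator outside `Q`
    rcases eq_or_ne u 1 with rfl | hu1
    · rwa [one_mul]
    · exfalso
      have hvP : v ∈ P := hspan ▸ spn_mono (by omega) le_rfl hv
      have hvP' : v ∈ P' := hP'span ▸ spn_mono le_rfl (by omega) hv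
      have huQ : u ∈ Q := by
        rw [← hinter]
        refine ⟨hspan ▸ Subgroup.zpowers_le.mpr (cj_mem le_rfl (by omega)) hu, ?_⟩
        simpa using mul_mem (hP'span ▸ hz.2 : u * v ∈ P') (inv_mem hvP')
      have hle : P ≤ Q := by
        intro w hw
        obtain ⟨u', hu', v', hv', rfl⟩ := C.head_decomp (show (0 : ℤ) ≤ (t : ℤ) - 1 by omega) (by omega) (hspan.symm ▸ hw)
        refine mul_mem ?_ ?_
        · have h1 := Subgroup.zpowers_le.mpr huQ
          rw [C.zpowers_eq ht hu hu1] at h1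
          exact h1 hu'
        · rw [← hinter]
          exact ⟨hspan ▸ spn_mono (by omega) le_rfl hv', hP'span ▸ spn_mono (by omega) (by omega) hv'⟩
      exact hp₀Q (hle hp₀)
  have hx0Q : cj g x 0 ∉ Q := fun h => by
    rw [hQspan] at h
    exact C.not_mem (show (0 : ℤ) ≤ (t : ℤ) - 1 by omega) (by omega) (by simpa using h)
  have ht2 : 2 ≤ t := by
    by_contra hlt
    refine hO ((Subgroup.map_eq_bot_iff_of_injective _ H.subtype_injective).mp ?_)
    rw [← hQ, hQspan, spn_empty (by omega)]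
  have hHgen : ∀ X : Subgroup G, (∀ j : ℤ, 0 ≤ j → j ≤ t → cj g x j ∈ X) → H ≤ X := fun X hX =>
    hgenH X (hspan ▸ spn_le_iff.mpr fun j h1 h2 => hX j h1 (by omega))
      (hP'span ▸ spn_le_iff.mpr fun j h1 h2 => hX j (by omega) h2)
  have hcjH : ∀ j : ℤ, 0 ≤ j → j ≤ t → cj g x j ∈ H := fun j h1 h2 => by
    rcases le_or_gt j ((t : ℤ) - 1) with h3 | h3
    · exact hPH (hspan ▸ cj_mem h1 h3)
    · exact hP'H (hP'span ▸ cj_mem (by omega) h2)
  -- `y` exchanges the two maximal subgroups
  have hy2Q : y ^ 2 ∈ Subgroup.normalizer (Q : Set G) :=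
    sup_le (hPH.trans hQn) ((Subgroup.centralizer_le (show (Q : Set G) ⊆ P from hQP)).trans
      (Subgroup.centralizer_le_normalizer _)) hy2
  -- noncommuting pairs within range
  have hZ : ∀ i : ℤ, 0 ≤ i → i < t → ∃ j : ℤ, -2 ≤ j ∧ j < t ∧ ¬ Commute (cj g x i) (cj g x j) := by
    intro i hi0 hit
    by_contra hcon
    push Not at hcon
    set z := cj g x (i + 1) with hz
    have hzH : z ∈ H := hcjH _ (by omega) (by omega)
    have hzc : ∀ j : ℤ, -1 ≤ j → j ≤ t → Commute z (cj g x j) := fun j h1 h2 => by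
      rw [hz, commute_cj, show j - (i + 1) = (j - 1) - i by ring, ← commute_cj]
      exact hcon _ (by omega) (by omega)
    -- the normal subgroup of central elements
    set N := Q ⊓ Subgroup.centralizer (H : Set G) ⊓ Subgroup.centralizer ((H.map (MulAut.conj y⁻¹).toMonoidHom : Subgroup G) : Set G) with hN
    have hhH : H.map (MulAut.conj h⁻¹).toMonoidHom = H :=
      Subgroup.mem_normalizer_iff_map_conj_eq.mp (Subgroup.le_normalizer (inv_mem hh.2))
    have hyH : H.map (MulAut.conj y⁻¹).toMonoidHom = H.map (MulAut.conj g⁻¹).toMonoidHom := by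
      rw [hg, mul_inv_rev, map_mul, show (MulAut.conj y⁻¹ * MulAut.conj h⁻¹).toMonoidHom =
        (MulAut.conj y⁻¹).toMonoidHom.comp (MulAut.conj h⁻¹).toMonoidHom from rfl, ← Subgroup.map_map,
        hhH]
    have hzN : z ∈ N := by
      have hzCH : z ∈ Subgroup.centralizer (H : Set G) := by
        rw [← Subgroup.zpowers_le, Subgroup.le_centralizer_iff]
        refine hHgen _ fun j h1 h2 => Subgroup.mem_centralizer_iff.mpr fun w hw => ?_
        obtain ⟨l, rfl⟩ := hw
        exact ((hzc j (by omega) h2).zpow_left l).eq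
      refine ⟨⟨?_, hzCH⟩, ?_⟩
      · have hzc' : ∀ w : ↥H, w * ⟨z, hzH⟩ = ⟨z, hzH⟩ * w := fun w =>
          Subtype.ext (Subgroup.mem_centralizer_iff.mp hzCH w w.2)
        haveI : (Subgroup.zpowers (⟨z, hzH⟩ : ↥H)).Normal := ⟨fun u hu w => by
          obtain ⟨l, rfl⟩ := hu
          show w * (⟨z, hzH⟩ : ↥H) ^ l * w⁻¹ ∈ _
          rw [((show Commute w ⟨z, hzH⟩ from hzc' w).zpow_right l).eq, mul_inv_cancel_right]
          exact zpow_mem (Subgroup.mem_zpowers _) l⟩
        refine ⟨⟨z, hzH⟩, CfsgLib.Constrained.le_pCore inferInstance ?_ (Subgroup.mem_zpowers _), rfl⟩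
        refine IsPGroup.of_card (n := 1) ?_
        rw [Nat.card_zpowers, Subgroup.orderOf_mk, pow_one, ← Nat.card_zpowers, hz, C.card_zpowers ht]
      · show z ∈ Subgroup.centralizer _
        rw [← Subgroup.zpowers_le, Subgroup.le_centralizer_iff, hyH, Subgroup.map_le_iff_le_comap]
        refine hHgen _ fun j h1 h2 => Subgroup.mem_centralizer_iff.mpr fun w hw => ?_
        obtain ⟨l, rfl⟩ := hw
        show z ^ l * (MulAut.conj g⁻¹ (cj g x j)) = MulAut.conj g⁻¹ (cj g x j) * z ^ l
        rw [MulAut.conj_apply, inv_inv,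
          show g⁻¹ * cj g x j * g = g ^ (-1 : ℤ) * cj g x j * (g ^ (-1 : ℤ))⁻¹ by rw [zpow_neg_one, inv_inv], cj_shift]
        exact ((hzc _ (by omega) (by omega)).zpow_left l).eq
    have hNbot : N = ⊥ := by
      refine hyQ N (inf_le_left.trans (inf_le_left.trans hQP)) ?_ ?_
      · refine ⟨fun u hu w => ?_⟩
        rw [show w * u * w⁻¹ = u from Subtype.ext (by
          rw [Subgroup.coe_mul, Subgroup.coe_mul, Subgroup.coe_inv,
            Subgroup.mem_centralizer_iff.mp (Subgroup.mem_subgroupOf.mp hu).1.2 w w.2, mul_inv_cancel_right])]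
        exact hu
      · rw [hsm]
        refine Subgroup.eq_of_le_of_card_ge ?_ (Subgroup.card_map_of_injective (MulAut.conj y).injective).ge
        rintro _ ⟨v, ⟨⟨hvQ, hvH⟩, hvy⟩, rfl⟩
        show y * v * y⁻¹ ∈ N
        set v' := y * v * y⁻¹ with hv'
        have hvP' : v' ∈ P := (Subgroup.mem_normalizer_iff.mp hyN' v).mp (hQP hvQ)
        have hv'H : v' ∈ Subgroup.centralizer (H : Set G) := by
          refine Subgroup.mem_centralizer_iff.mpr fun w hw => ?_
          have h1 := Subgroup.mem_centralizer_iff.mp hvy _ (Subgroup.mem_map_of_mem _ hw)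
          change y⁻¹ * w * y⁻¹⁻¹ * v = v * (y⁻¹ * w * y⁻¹⁻¹) at h1
          rw [inv_inv] at h1
          calc w * v' = y * (y⁻¹ * w * y * v) * y⁻¹ := by rw [hv']; group
            _ = y * (v * (y⁻¹ * w * y)) * y⁻¹ := by rw [h1]
            _ = v' * w := by rw [hv']; group
        have hv'c : v' * y ^ 2 = y ^ 2 * v' := by
          have hle : P ⊔ Subgroup.centralizer (P : Set G) ≤ Subgroup.centralizer ({v'} : Set G) := sup_le
            (fun w hw => Subgroup.mem_centralizer_singleton_iff.mpr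
              (Subgroup.mem_centralizer_iff.mp hv'H w (hPH hw)))
            (fun w hw => Subgroup.mem_centralizer_singleton_iff.mpr
              (Subgroup.mem_centralizer_iff.mp hw v' hvP').symm)
          exact (Subgroup.mem_centralizer_singleton_iff.mp (hle hy2)).symm
        refine ⟨⟨?_, hv'H⟩, Subgroup.mem_centralizer_iff.mpr ?_⟩
        · have hv'H' : v' ∈ H := hPH hvP'
          refine hQmem ⟨v', hv'H'⟩ ((hPimg ⟨v', hv'H'⟩ hvP').resolve_right fun he => hne2 ?_)
          have h1 : φ ⟨v', hv'H'⟩ * φ hh = φ hh * φ ⟨v', hv'H'⟩ := by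
            rw [← map_mul, ← map_mul]
            exact congrArg φ (Subtype.ext (Subgroup.mem_centralizer_iff.mp hv'H _ hh.2).symm)
          rw [he, hhφ, DihedralGroup.sr_mul_r, DihedralGroup.r_mul_sr, DihedralGroup.sr.injEq] at h1
          rw [show (2 : ZMod n) = i₀ + 1 - (i₀ - 1) by ring, h1, sub_self, DihedralGroup.r_zero]
        · rintro _ ⟨w, hw, rfl⟩
          show y⁻¹ * w * y⁻¹⁻¹ * v' = v' * (y⁻¹ * w * y⁻¹⁻¹)
          rw [inv_inv]
          have e2 : v' = y⁻¹ * v * y := by
            calc v' = (y ^ 2)⁻¹ * (y ^ 2 * v') := (inv_mul_cancel_left _ _).symm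
              _ = (y ^ 2)⁻¹ * (v' * y ^ 2) := by rw [hv'c]
              _ = y⁻¹ * v * y := by rw [hv', pow_two]; group
          have h1 := Subgroup.mem_centralizer_iff.mp hvH w hw
          rw [e2]
          calc y⁻¹ * w * y * (y⁻¹ * v * y) = y⁻¹ * (w * v) * y := by group
            _ = y⁻¹ * (v * w) * y := by rw [h1]
            _ = _ := by group
    have hc := C.card_zpowers ht (i + 1)
    rw [← hz, (Subgroup.mem_bot.mp (hNbot ▸ hzN) : z = 1), Subgroup.zpowers_one_eq_bot, Subgroup.card_bot] at hc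
    omega
  obtain ⟨ht6, ht5⟩ := order_bound C (n := 2) (by norm_num) (fun i h1 h2 => by
    obtain ⟨j, h3, h4, h5⟩ := hZ i h1 h2
    exact ⟨j, by omega, h4, h5⟩)
  -- the first noncommuting distance
  obtain ⟨s, hs, hns, hs2⟩ : ∃ s : ℕ, (∀ d : ℕ, d < s → Commute x (cj g x d)) ∧ ¬ Commute x (cj g x s) ∧
      2 * s ≤ t + 2 := by
    obtain ⟨j, hj1, hj2, hj⟩ := hZ (((t - 2) / 2 : ℕ) : ℤ) (by omega) (by omega)
    have hd : ∃ d : ℕ, ¬ Commute x (cj g x d) ∧ 2 * d ≤ t + 2 := by
      rcases le_total (((t - 2) / 2 : ℕ) : ℤ) j with h | h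
      · refine ⟨(j - ((t - 2) / 2 : ℕ)).toNat, ?_, by omega⟩
        rw [Int.toNat_of_nonneg (by omega), ← commute_cj]
        exact hj
      · refine ⟨((((t - 2) / 2 : ℕ) : ℤ) - j).toNat, ?_, by omega⟩
        rw [Int.toNat_of_nonneg (by omega), ← commute_cj]
        exact fun h' => hj h'.symm
    obtain ⟨d, hd1, hd2⟩ := hd
    have hex : ∃ e : ℕ, ¬ Commute x (cj g x e) := ⟨d, hd1⟩
    exact ⟨Nat.find hex, fun e he => not_not.mp (Nat.find_min hex he), Nat.find_spec hex,
      (Nat.mul_le_mul_left 2 (Nat.find_le (h := hex) hd1)).trans hd2⟩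
  have hs3 := C.two_mul_le hs hns
  have hclose : ∀ i j : ℤ, i - j < s → j - i < s → Commute (cj g x i) (cj g x j) := by
    intro i j h1 h2
    rcases le_total i j with h | h
    · rw [commute_cj, show j - i = ((j - i).toNat : ℤ) by omega]
      exact hs _ (by omega)
    · refine Commute.symm ?_
      rw [commute_cj, show i - j = ((i - j).toNat : ℤ) by omega]
      exact hs _ (by omega)
  have hsq : ∀ i : ℤ, cj g x i * cj g x i = 1 := fun i => by
    rw [← sq]
    have h := pow_card_eq_one' (x := (⟨cj g x i, Subgroup.mem_zpowers _⟩ : Subgroup.zpowers (cj g x i)))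
    rw [C.card_zpowers ht] at h
    exact congrArg Subtype.val h
  have hsqspn : ∀ a b : ℤ, b - a < s → ∀ q ∈ spn g x a b, q * q = 1 := by
    intro a b hab q hq
    rw [← sq]
    induction hq using Subgroup.closure_induction with
    | mem u hu => obtain ⟨i, -, -, rfl⟩ := hu; rw [sq, hsq]
    | one => simp
    | mul u v hu hv ihu ihv =>
      rw [(commute_spn (fun i k h1 h2 h3 h4 => hclose i k (by omega) (by omega)) hu hv).mul_pow, ihu, ihv, mul_one]
    | inv u _ ihu => rw [inv_pow, ihu, inv_one]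
  rcases (by omega : t = 2 ∨ t = 3 ∨ t = 4 ∨ t = 6) with rfl | hcases
  · -- `t = 2`
    refine ⟨Or.inl (by rw [hcard]; norm_num), Or.inl ?_⟩
    have hQ2 : Nat.card Q = 2 := by rw [hQspan, C.card 1 _ (by omega)]; norm_num
    have hQq : Nat.card ↥(pCore 2 ↥H) = 2 := by
      exact (Subgroup.card_map_of_injective H.subtype_injective).symm.trans hQ2
    have hcen : ∀ c : ↥H, ∀ q ∈ pCore 2 ↥H, c * q = q * c := by
      intro c q hq
      rcases eq_or_ne q 1 with rfl | hq1
      · rw [mul_one, one_mul]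
      have hq' : c * q * c⁻¹ ∈ pCore 2 ↥H := Subgroup.Normal.conj_mem inferInstance q hq c
      have hall : ∀ u ∈ pCore 2 ↥H, u = 1 ∨ u = q := fun u hu => by
        by_contra hne
        push Not at hne
        have hsub : ({1, q, u} : Set ↥H) ⊆ (pCore 2 ↥H : Set ↥H) := by
          rintro v (rfl | rfl | rfl)
          exacts [one_mem _, hq, hu]
        have h1 := Set.ncard_le_ncard hsub (Set.toFinite _)
        rw [Set.ncard_insert_of_notMem (by simp [Ne.symm hq1, Ne.symm hne.1]) (Set.toFinite _),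
          Set.ncard_pair (Ne.symm hne.2), ← Nat.card_coe_set_eq] at h1
        simp only [SetLike.coe_sort_coe, hQq] at h1
        omega
      rcases hall _ hq' with h1 | h1
      · exact absurd (conj_eq_one_iff.mp h1) hq1
      · exact mul_inv_eq_iff_eq_mul.mp h1
    have hsqP : ∀ z ∈ P, z * z = 1 := by
      intro z hz
      rw [← hspan] at hz
      rw [← sq]
      induction hz using Subgroup.closure_induction with
      | mem u hu => obtain ⟨i, -, -, rfl⟩ := hu; rw [sq, hsq]
      | one => simp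
      | mul u v hu hv ihu ihv =>
        rw [(commute_spn (fun i k h1 h2 h3 h4 => hclose i k (by omega) (by omega)) hu hv).mul_pow, ihu, ihv, mul_one]
      | inv u _ ihu => rw [inv_pow, ihu, inv_one]
    -- rotations
    set C₀ : Subgroup ↥H := (Subgroup.zpowers (DihedralGroup.r (1 : ZMod n))).comap φ with hC₀
    have hrn : (Subgroup.zpowers (DihedralGroup.r (1 : ZMod n))).Normal := by
      refine Subgroup.normal_of_index_eq_two ?_
      have h1 := (Subgroup.zpowers (DihedralGroup.r (1 : ZMod n))).card_mul_index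
      rw [Nat.card_zpowers, DihedralGroup.orderOf_r_one, DihedralGroup.nat_card, mul_comm 2 n] at h1
      exact Nat.eq_of_mul_eq_mul_left (by omega) h1
    haveI hC₀n : C₀.Normal := hrn.comap φ
    have hQC₀ : pCore 2 ↥H ≤ C₀ := fun q hq => by
      show φ q ∈ Subgroup.zpowers (DihedralGroup.r (1 : ZMod n))
      rw [show φ q = 1 from MonoidHom.mem_ker.mp (hker.symm ▸ hq : q ∈ φ.ker)]
      exact one_mem _
    have hC₀idx : (pCore 2 ↥H).relIndex C₀ = n := by
      have h1 := Subgroup.relIndex_comap (⊥ : Subgroup (DihedralGroup n)) φ C₀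
      rw [MonoidHom.comap_bot, hker, Subgroup.relIndex_bot_left, hC₀,
        Subgroup.map_comap_eq_self_of_surjective hφ, Nat.card_zpowers, DihedralGroup.orderOf_r_one] at h1
      exact h1
    have hQ2' : ∀ q ∈ pCore 2 ↥H, q * q = 1 := fun q hq => Subtype.ext (hsqP _ (hQP ⟨q, hq, rfl⟩))
    obtain ⟨O, hOC, hOcard, hOn, -, -⟩ := exists_odd_complement hQC₀ (fun c _ => hcen c) hQ2' (hC₀idx ▸ hnodd)
    have hOle : O ≤ oddCore ↥H := CfsgLib.Constrained.le_pPrimeCore (hOn hC₀n)
      (hOcard ▸ hC₀idx.symm ▸ Nat.coprime_two_right.mpr hnodd)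
    have hoddP : ∀ z : ↥H, (z : G) ∈ P → z ∈ oddCore ↥H → z = 1 := fun z hz hzo =>
      eq_one_of_odd_of_sq (Subtype.ext (hsqP _ hz)) (by
        rw [← Nat.not_even_iff_odd, even_iff_two_dvd]
        intro h2
        refine CfsgLib.Constrained.pPrimeCore_not_dvd (p := 2) (G := ↥H) (h2.trans ?_)
        rw [← Nat.card_zpowers]
        exact Subgroup.card_dvd_of_le (Subgroup.zpowers_le.mpr hzo))
    set ψ : ↥P →* ↥H ⧸ oddCore ↥H := (QuotientGroup.mk' (oddCore ↥H)).comp (Subgroup.inclusion hPH) with hψ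
    have hinj : Function.Injective ψ := by
      refine (injective_iff_map_eq_one ψ).mpr fun z hz => ?_
      have := hoddP (Subgroup.inclusion hPH z) z.2 ((QuotientGroup.eq_one_iff _).mp hz)
      exact Subtype.ext (by simpa using congrArg Subtype.val this)
    have hsur : Function.Surjective ψ := by
      have hle : Nat.card (↥H ⧸ oddCore ↥H) ≤ Nat.card ↥P := by
        have h1 := (oddCore ↥H).card_mul_index
        have h2 := (pCore 2 ↥H).card_mul_index
        rw [show (pCore 2 ↥H).index = 2 * n by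
          rw [← hker, Subgroup.index_ker, MonoidHom.range_eq_top.mpr hφ, Subgroup.card_top, DihedralGroup.nat_card],
          hQq, ← h1, Subgroup.index_eq_card] at h2
        have h3 : n ≤ Nat.card ↥(oddCore ↥H) := by
          rw [← hC₀idx, ← hOcard]; exact Subgroup.card_le_of_le hOle
        rw [hcard]
        norm_num
        nlinarith
      exact ((Nat.bijective_iff_injective_and_card ψ).mpr ⟨hinj, le_antisymm (Nat.card_le_card_of_injective ψ hinj) hle⟩).2
    let eP := (MulEquiv.ofBijective ψ ⟨hinj, hsur⟩).symm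
    haveI : IsKleinFour ↥P := by
      refine ⟨by rw [hcard]; norm_num, ?_⟩
      refine (Nat.prime_two.eq_one_or_self_of_dvd _ (Monoid.exponent_dvd_of_forall_pow_eq_one fun z => Subtype.ext (by
        rw [SubgroupClass.coe_pow, sq, hsqP _ z.2]; rfl))).resolve_left fun h1 => ?_
      haveI := Monoid.exp_eq_one_iff.mp h1
      have h4 : Nat.card ↥P = 1 := Nat.card_eq_one_iff_unique.mpr ⟨this, ⟨1⟩⟩
      rw [hcard] at h4
      norm_num at h4
    haveI : IsKleinFour (Multiplicative (ZMod 2) × Multiplicative (ZMod 2)) := by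
      refine ⟨by simp [Nat.card_prod], ?_⟩
      refine (Nat.prime_two.eq_one_or_self_of_dvd _ (Monoid.exponent_dvd_of_forall_pow_eq_one (by decide))).resolve_left
        fun h1 => ?_
      haveI := Monoid.exp_eq_one_iff.mp h1
      exact absurd (Subsingleton.elim (α := Multiplicative (ZMod 2) × Multiplicative (ZMod 2))
        (Multiplicative.ofAdd 1, 1) 1) (by decide)
    obtain ⟨e₄⟩ := IsKleinFour.nonempty_mulEquiv (G₁ := ↥P) (G₂ := Multiplicative (ZMod 2) × Multiplicative (ZMod 2))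
    exact ⟨eP.trans e₄⟩
  rcases hcases with h3 | h3 | h3
  rotate_left
  rotate_left
  · -- `t = 6` is impossible
    exfalso
    subst h3
    have hs4 : s = 4 := by omega
    subst hs4
    set R := spn g x 1 4 with hR
    have hsQ : spn g x 1 5 = Q := by rw [hQspan]; norm_num
    have hw := C.comm_high (by omega) hs hns
    norm_num at hw
    have hw' := C.comm_low (by omega) hs hns
    norm_num at hw'
    have hshift : ∀ {a b c : ℤ} {z : G}, z ∈ spn g x a b → g ^ c * z * (g ^ c)⁻¹ ∈ spn g x (c + a) (c + b) :=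
      fun {a b c z} hz => spn_map (g := g) (x := x) a b c ▸ Subgroup.mem_map_of_mem _ hz
    have h26 : cj g x 2 * cj g x 6 * (cj g x 2)⁻¹ * (cj g x 6)⁻¹ ∈ R := by
      have h := hshift (c := 2) hw'
      rw [show cj g x 6 = g ^ (2 : ℤ) * cj g x 4 * (g ^ (2 : ℤ))⁻¹ by rw [cj_shift]; norm_num]
      refine spn_mono (show (1 : ℤ) ≤ 2 + 1 by norm_num) (show (2 : ℤ) + 2 ≤ 4 by norm_num) ?_
      convert h using 1
      rw [show cj g x 2 = g ^ (2 : ℤ) * x * (g ^ (2 : ℤ))⁻¹ from rfl]
      group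
    -- `[x₀, x₅]` avoids `x₄`
    set u := x * cj g x 5 * x⁻¹ * (cj g x 5)⁻¹ with hu
    have hu14 : u ∈ spn g x 1 4 := by
      have h := C.comm_mem ht (i := 0) (j := 5) (by norm_num) (by norm_num)
      simpa [cj_zero] using h
    have hux : Commute x u := by
      have hx2 : x * x = 1 := cj_zero (g := g) (x := x) ▸ hsq 0
      have hu2 := hsqspn 1 4 (by norm_num) u hu14
      have hi : x⁻¹ = x := inv_eq_of_mul_eq_one_right hx2
      have hj : (cj g x 5)⁻¹ = cj g x 5 := inv_eq_of_mul_eq_one_right (hsq 5)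
      have e1 : x * u * x⁻¹ = u⁻¹ := by
        calc x * u * x⁻¹ = (x * x) * cj g x 5 * x⁻¹ * (cj g x 5)⁻¹ * x⁻¹ := by rw [hu]; group
          _ = cj g x 5 * x * (cj g x 5)⁻¹ * x⁻¹ := by rw [hx2, one_mul]; simp only [hi, hj]
          _ = u⁻¹ := by rw [hu]; group
      rw [inv_eq_of_mul_eq_one_right hu2] at e1
      exact mul_inv_eq_iff_eq_mul.mp e1
    have hu13 : u ∈ spn g x 1 3 := by
      have h := C.inv_base.head_decomp (a := -4) (b := -1) (by norm_num) (by norm_num)
        (y := u) (by rw [spn_inv_base]; simpa using hu14)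
      obtain ⟨z, hz, u', hu', e1⟩ := h
      rw [cj_inv_base, neg_neg] at hz
      rw [spn_inv_base] at hu'
      norm_num at hu'
      have hxu' : Commute x u' := by
        have h := commute_spn (a := 0) (b := 0) (fun i k h1 h2 h3 h4 => hclose i k (by omega) (by omega))
          (cj_mem (g := g) (x := x) (le_refl (0 : ℤ)) le_rfl) hu'
        simpa [cj_zero] using h
      have hxz : Commute x z := by
        have h := hux.mul_right hxu'.inv_right
        rwa [e1, mul_inv_cancel_right] at h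
      rcases eq_or_ne z 1 with rfl | hz1
      · rw [e1, one_mul]; exact hu'
      · refine absurd ?_ hns
        have hle : Subgroup.zpowers z ≤ Subgroup.centralizer ({x} : Set G) :=
          Subgroup.zpowers_le.mpr (Subgroup.mem_centralizer_singleton_iff.mpr hxz.symm.eq)
        rw [C.zpowers_eq ht hz hz1] at hle
        exact (Subgroup.mem_centralizer_singleton_iff.mp (hle (Subgroup.mem_zpowers _)) : Commute (cj g x 4) x).symm
    have h16 : cj g x 1 * cj g x 6 * (cj g x 1)⁻¹ * (cj g x 6)⁻¹ ∈ R := by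
      have h := hshift (c := 1) hu13
      rw [show cj g x 6 = g ^ (1 : ℤ) * cj g x 5 * (g ^ (1 : ℤ))⁻¹ by rw [cj_shift]; norm_num]
      refine spn_mono (show (1 : ℤ) ≤ 1 + 1 by norm_num) (show (1 : ℤ) + 3 ≤ 4 by norm_num) ?_
      convert h using 1
      rw [show cj g x 1 = g ^ (1 : ℤ) * x * (g ^ (1 : ℤ))⁻¹ from rfl, hu]
      group
    have hn6 : cj g x 6 ∈ Subgroup.normalizer (R : Set G) := by
      refine Subgroup.mem_normalizer_iff_map_conj_eq.mpr (Subgroup.eq_of_le_of_card_ge ?_
        (Subgroup.card_map_of_injective (MulAut.conj _).injective).ge)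
      rw [Subgroup.map_le_iff_le_comap, hR, spn_le_iff]
      intro j hj1 hj2
      show cj g x 6 * cj g x j * (cj g x 6)⁻¹ ∈ R
      by_cases hj3 : 3 ≤ j
      · rw [(hclose 6 j (by omega) (by omega)).eq, mul_inv_cancel_right]
        exact cj_mem hj1 hj2
      · have hcase : cj g x j * cj g x 6 * (cj g x j)⁻¹ * (cj g x 6)⁻¹ ∈ R := by
          rcases (by omega : j = 1 ∨ j = 2) with rfl | rfl
          exacts [h16, h26]
        have h := mul_mem (inv_mem hcase) (cj_mem (g := g) (x := x) hj1 hj2)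
        simpa [mul_assoc] using h
    set Q' := spn g x 0 4 with hQ'
    have hRQ : R = Q ⊓ Q' := by
      refine le_antisymm (le_inf (hsQ ▸ spn_mono le_rfl (by norm_num)) (spn_mono (by norm_num) le_rfl)) fun z hz => ?_
      exact C.mem_interior ht (show (0 : ℤ) < 5 by norm_num) (by norm_num) (by norm_num; exact hz.2)
        (by norm_num; exact hsQ.symm ▸ hz.1)
    have hPn : P ≤ Subgroup.normalizer (R : Set G) := by
      have h1 : P ≤ Subgroup.normalizer (Q' : Set G) := by
        have h := C.normalizes_pred (show (0 : ℤ) ≤ 5 by norm_num) (by norm_num)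
        rw [← hspan]
        norm_num at h ⊢
        exact h
      rw [hRQ]
      exact fun z hz => Subgroup.inf_normalizer_le_normalizer_inf ⟨hQn (hPH hz), h1 hz⟩
    have hHR : H ≤ Subgroup.normalizer (R : Set G) := by
      refine hHgen _ fun j h1 h2 => ?_
      rcases (by omega : j ≤ 5 ∨ j = 6) with h3 | rfl
      · exact hPn (hspan ▸ cj_mem h1 (by omega))
      · exact hn6
    have hhQ : Q.map (MulAut.conj h⁻¹).toMonoidHom = Q :=
      Subgroup.mem_normalizer_iff_map_conj_eq.mp (hQn (inv_mem hh.2))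
    have hQ'eq : Q.map (MulAut.conj y⁻¹).toMonoidHom = Q' := by
      have h1 : Q.map (MulAut.conj y⁻¹).toMonoidHom = Q.map (MulAut.conj g⁻¹).toMonoidHom := by
        rw [hg, mul_inv_rev, map_mul, show (MulAut.conj y⁻¹ * MulAut.conj h⁻¹).toMonoidHom =
          (MulAut.conj y⁻¹).toMonoidHom.comp (MulAut.conj h⁻¹).toMonoidHom from rfl, ← Subgroup.map_map,
          hhQ]
      rw [h1, ← zpow_neg_one, ← hsQ, spn_map]
      norm_num
      rfl
    have hyR : R = ⊥ := by
      refine hyQ R (hspan ▸ spn_mono (by norm_num) (by norm_num)) (Subgroup.normal_subgroupOf_of_le_normalizer hHR) ?_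
      have hinvy : (Q.map (MulAut.conj y⁻¹).toMonoidHom).map (MulAut.conj y).toMonoidHom = Q := by
        rw [Subgroup.map_map, show (MulAut.conj y).toMonoidHom.comp (MulAut.conj y⁻¹).toMonoidHom = MonoidHom.id G by
          ext z; simp [mul_assoc], Subgroup.map_id]
      rw [hsm, hRQ, ← hQ'eq, Subgroup.map_inf _ _ _ (MulAut.conj y).injective, hinvy, inf_comm]
      congr 1
      have h2 := Subgroup.mem_normalizer_iff_map_conj_eq.mp hy2Q
      conv_rhs => rw [← h2]
      have hcomp : (MulAut.conj y).toMonoidHom =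
          (MulAut.conj y⁻¹).toMonoidHom.comp (MulAut.conj (y ^ 2)).toMonoidHom :=
        MonoidHom.ext fun z => show y * z * y⁻¹ = y⁻¹ * (y ^ 2 * z * (y ^ 2)⁻¹) * y⁻¹⁻¹ by group
      rw [hcomp, ← Subgroup.map_map]
      rfl
    have h1 : cj g x 1 ∈ R := cj_mem le_rfl (by norm_num)
    rw [hyR, Subgroup.mem_bot] at h1
    have hc := C.card_zpowers ht 1
    rw [h1, Subgroup.zpowers_one_eq_bot, Subgroup.card_bot] at hc
    omega
  all_goals
    have hts : s + 1 = t := by omega
    refine ⟨by rw [hcard, h3]; norm_num, Or.inr ?_⟩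
    -- elementary abelian core of order `4 k`, `k = 2 ^ (t - 3)`
    have hQ2 : ∀ q ∈ pCore 2 ↥H, q * q = 1 := fun q hq => Subtype.ext
      (hsqspn 1 ((t : ℤ) - 1) (by omega) (q : G) (hQspan ▸ ⟨q, hq, rfl⟩))
    have hQc : Nat.card ↥(pCore 2 ↥H) = 4 * 2 ^ (t - 3) := by
      rw [← Subgroup.card_map_of_injective H.subtype_injective, ← hQ, hQspan, C.card 1 _ (by omega), h3]
      rfl
    have hx0H : cj g x 0 ∈ H := hcjH 0 le_rfl (by omega)
    have hns0 : ∀ i : ℤ, ¬ Commute (cj g x i) (cj g x (i + s)) := fun i h => hns (by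
      rwa [commute_cj, add_sub_cancel_left] at h)
    have hdrop : ∀ {a b c : ℤ}, a ≤ b → b < a + t → (∀ j, a + 1 ≤ j → j ≤ b → Commute (cj g x c) (cj g x j)) →
        ¬ Commute (cj g x c) (cj g x a) → ∀ {z : G}, z ∈ spn g x a b → Commute (cj g x c) z →
        z ∈ spn g x (a + 1) b := by
      intro a b c hab hbt hc hna z hz hcz
      obtain ⟨u, hu, v, hv, rfl⟩ := C.head_decomp hab hbt hz
      have hcv : Commute (cj g x c) v :=
        commute_spn (a := c) (b := c) (fun i k h1 h2 h3 h4 => by rw [show i = c by omega]; exact hc k h3 h4)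
          (cj_mem le_rfl le_rfl) hv
      have hcu : Commute (cj g x c) u := by
        have h := hcz.mul_right hcv.inv_right
        rwa [mul_inv_cancel_right] at h
      rcases eq_or_ne u 1 with rfl | hu1
      · rwa [one_mul]
      · refine absurd ?_ hna
        have hle : Subgroup.zpowers u ≤ Subgroup.centralizer ({cj g x c} : Set G) :=
          Subgroup.zpowers_le.mpr (Subgroup.mem_centralizer_singleton_iff.mpr hcu.symm.eq)
        rw [C.zpowers_eq ht hu hu1] at hle
        exact (Subgroup.mem_centralizer_singleton_iff.mp (hle (Subgroup.mem_zpowers _)) : Commute (cj g x a) (cj g x c)).symm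
    have hZc : Nat.card ↥(pCore 2 ↥H ⊓ Subgroup.center ↥H) = 2 ^ (t - 3) := by
      rw [← Subgroup.card_map_of_injective H.subtype_injective,
        show (pCore 2 ↥H ⊓ Subgroup.center ↥H).map H.subtype = spn g x 2 ((t : ℤ) - 2) from ?_,
        C.card 2 _ (by omega), h3]
      · norm_num
      refine le_antisymm ?_ (spn_le_iff.mpr fun i h1 h2 => ?_)
      · rintro _ ⟨q, ⟨hq, hqc⟩, rfl⟩
        have hq1 : (q : G) ∈ spn g x 1 ((t : ℤ) - 1) := hQspan ▸ ⟨q, hq, rfl⟩
        have hcomm : ∀ j : ℤ, 0 ≤ j → j ≤ t → Commute (cj g x j) (q : G) := fun j h1 h2 =>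
          congrArg Subtype.val (Subgroup.mem_center_iff.mp hqc ⟨cj g x j, hcjH j h1 h2⟩)
        have hq2 : (q : G) ∈ spn g x 2 ((t : ℤ) - 1) := by
          have h := hdrop (a := 1) (c := (t : ℤ)) (by omega) (by omega)
            (fun j h1 h2 => hclose _ _ (by omega) (by omega))
            (fun h => hns0 1 (by rw [show (1 : ℤ) + s = t by omega]; exact h.symm)) hq1
            (hcomm t (by omega) le_rfl)
          norm_num at h
          exact h
        -- the other end, by reversal
        obtain ⟨u, hu, v, hv, e1⟩ := C.inv_base.head_decomp (a := -((t : ℤ) - 1)) (b := -2) (by omega) (by omega)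
          (y := (q : G)) (by rw [spn_inv_base]; simpa using hq2)
        rw [cj_inv_base, neg_neg] at hu
        rw [spn_inv_base, neg_neg, show -(-((t : ℤ) - 1) + 1) = (t : ℤ) - 2 by ring] at hv
        show (q : G) ∈ spn g x 2 ((t : ℤ) - 2)
        rcases eq_or_ne u 1 with rfl | hu1
        · rwa [e1, one_mul]
        · exfalso
          have hxv : Commute (cj g x 0) v :=
            commute_spn (a := 0) (b := 0) (fun i k h1 h2 h3 h4 => hclose i k (by omega) (by omega))
              (cj_mem le_rfl le_rfl) hv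
          have hxu : Commute (cj g x 0) u := by
            have h := (hcomm 0 le_rfl (by omega)).mul_right hxv.inv_right
            rwa [e1, mul_inv_cancel_right] at h
          refine hns0 0 ?_
          have hle : Subgroup.zpowers u ≤ Subgroup.centralizer ({cj g x 0} : Set G) :=
            Subgroup.zpowers_le.mpr (Subgroup.mem_centralizer_singleton_iff.mpr hxu.symm.eq)
          rw [C.zpowers_eq ht hu hu1] at hle
          rw [show (0 : ℤ) + s = (t : ℤ) - 1 by omega]
          exact (Subgroup.mem_centralizer_singleton_iff.mp (hle (Subgroup.mem_zpowers _)) : Commute (cj g x ((t : ℤ) - 1)) (cj g x 0)).symm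
      · have hiH : cj g x i ∈ H := hcjH i (by omega) (by omega)
        refine ⟨⟨cj g x i, hiH⟩, ⟨?_, Subgroup.mem_center_iff.mpr fun w => Subtype.ext ?_⟩, rfl⟩
        · have h : cj g x i ∈ Q := hQspan ▸ cj_mem (by omega) (by omega)
          obtain ⟨v, hv, hve⟩ := h
          rwa [show (⟨cj g x i, hiH⟩ : ↥H) = v from Subtype.ext hve.symm]
        · have hle : H ≤ Subgroup.centralizer ({cj g x i} : Set G) := hHgen _ fun j h1 h2 =>
            Subgroup.mem_centralizer_singleton_iff.mpr (hclose j i (by omega) (by omega))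
          exact Subgroup.mem_centralizer_singleton_iff.mp (hle w.2)
    have hmove : ∃ q ∈ pCore 2 ↥H, hh * q ≠ q * hh := by
      by_contra hcon
      push Not at hcon
      refine hns0 1 ?_
      rw [show (1 : ℤ) + s = t by omega]
      obtain ⟨p, hp, hpe⟩ : cj g x t ∈ P' := hP'span ▸ cj_mem (by omega) le_rfl
      obtain ⟨v, hv, hve⟩ : cj g x 1 ∈ Q := hQspan ▸ cj_mem le_rfl (by omega)
      have hhv : Commute h (cj g x 1) := by
        rw [← hve]
        exact congrArg Subtype.val (hcon v hv)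
      have hpv : Commute p (cj g x 1) :=
        (commute_spn (a := 1) (b := 1) (c := 0) (d := (t : ℤ) - 1) (fun i k h1 h2 h3 h4 => hclose i k (by omega) (by omega))
          (cj_mem le_rfl le_rfl) (hspan.symm ▸ hp)).symm
      rw [← hpe]
      exact ((hhv.mul_left hpv).mul_left hhv.inv_left).symm
    exact dihedral_quotient (Q := pCore 2 ↥H) hnodd φ hφ hker hQ2 (k := 2 ^ (t - 3))
      (by rw [h3]; norm_num) hQc hZc hhφ (b := ⟨cj g x 0, hx0H⟩) (Subtype.ext (hsq 0))
      (fun hb => hx0Q ⟨_, hb, rfl⟩) hmove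

end CfsgLib.GlauChain
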